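import Cfsg.Agent.R2.T3544.LocSol
import Cfsg.Agent.R2.T3544.Loc31
import Cfsg.Agent.R2.T3544.OffB2

/-!
# S3544, LOC: case 3 (`V_x ≤ Y_y` for neighbours, `J(R)` centralises `Y_y`)
-/

set_option autoImplicit false

namespace Cfsg.Agent.R2.T3544

open Subgroup MulAction Cfsg

section

variable {G : Type*} [Group G] {Ω : Type*} [MulAction G Ω]

/-- a Sylow `p`-subgroup of `G_x` in `G_y` (`p` prime to the valency) -/
theorem exists_syl_edge [Finite G] {ρ : Ω → Ω → Prop} {d : ℕ} (D : Dir G ρ d) {p : ℕ} [Fact p.Prime]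
    (hpd : ¬ p ∣ d) {x y : Ω} (hy : ρ x y) :
    ∃ R : Subgroup G, R ≤ stabilizer G x ∧ R ≤ stabilizer G y ∧ IsPGroup p R ∧
      Nat.card R = p ^ (Nat.card (stabilizer G x)).factorization p := by
  have hidx : ((stabilizer G y).subgroupOf (stabilizer G x)).index = d := D.idx hy
  obtain ⟨S, hS⟩ := exists_sylow_le_of_index (p := p) (B := (stabilizer G y).subgroupOf (stabilizer G x))
    (by rw [hidx]; exact hpd)
  refine ⟨(S : Subgroup (stabilizer G x)).map (stabilizer G x).subtype, map_subtype_le _, ?_, S.2.map _, ?_⟩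
  · rw [map_le_iff_le_comap]
    exact hS
  · rw [card_map_of_injective (stabilizer G x).subtype_injective, S.card_eq_multiplicity]

/-- points with a common Sylow `p`-subgroup `R` of the stabilizers are conjugate under `N_G(R)` -/
theorem exists_norm_move [Finite G] (P : PP G Ω) {p : ℕ} [Fact p.Prime] {x y : Ω} {R : Subgroup G}
    (hRx : R ≤ stabilizer G x) (hRy : R ≤ stabilizer G y)
    (hc : Nat.card R = p ^ (Nat.card (stabilizer G x)).factorization p) :
    ∃ n ∈ normalizer (R : Set G), n • x = y := by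
  obtain ⟨g, rfl⟩ := P.trans x y
  have hcard : Nat.card R = p ^ (Nat.card (stabilizer G (g • x))).factorization p := by
    rw [hc, stab_smul, card_map_of_injective (MulAut.conj g).injective]
  have hle : R.map (MulAut.conj g).toMonoidHom ≤ stabilizer G (g • x) := by
    rw [stab_smul]
    exact map_mono hRx
  have hcard2 : Nat.card (R.map (MulAut.conj g).toMonoidHom) =
      p ^ (Nat.card (stabilizer G (g • x))).factorization p := by
    rw [card_map_of_injective (MulAut.conj g).injective, hcard]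
  let S1 : Sylow p (stabilizer G (g • x)) := Sylow.ofCard (R.subgroupOf (stabilizer G (g • x)))
    (by rw [Nat.card_congr (subgroupOfEquivOfLe hRy).toEquiv, hcard])
  let S2 : Sylow p (stabilizer G (g • x)) :=
    Sylow.ofCard ((R.map (MulAut.conj g).toMonoidHom).subgroupOf (stabilizer G (g • x)))
    (by rw [Nat.card_congr (subgroupOfEquivOfLe hle).toEquiv, hcard2])
  obtain ⟨h, hh⟩ := MulAction.exists_smul_eq (stabilizer G (g • x)) S2 S1
  have hh' : (S2 : Subgroup (stabilizer G (g • x))).map (MulAut.conj h).toMonoidHom =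
      (S1 : Subgroup (stabilizer G (g • x))) := by
    rw [← hh]; rfl
  have hsub : ∀ r ∈ R, ((h : G) * g) * r * ((h : G) * g)⁻¹ ∈ R := by
    intro r hr
    have h1 : g * r * g⁻¹ ∈ R.map (MulAut.conj g).toMonoidHom := ⟨r, hr, rfl⟩
    have h2 : h * ⟨g * r * g⁻¹, hle h1⟩ * h⁻¹ ∈ (S1 : Subgroup (stabilizer G (g • x))) := by
      rw [← hh']
      exact ⟨⟨g * r * g⁻¹, hle h1⟩, h1, rfl⟩
    have h3 : ((h * ⟨g * r * g⁻¹, hle h1⟩ * h⁻¹ : stabilizer G (g • x)) : G) ∈ R := h2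
    have e : ((h * ⟨g * r * g⁻¹, hle h1⟩ * h⁻¹ : stabilizer G (g • x)) : G) =
        ((h : G) * g) * r * ((h : G) * g)⁻¹ := by
      simp only [coe_mul, coe_inv]
      group
    rwa [e] at h3
  have hmap : R.map (MulAut.conj ((h : G) * g)).toMonoidHom = R := by
    apply eq_of_le_of_card_ge
    · rintro _ ⟨r, hr, rfl⟩
      exact hsub r hr
    · rw [card_map_of_injective (MulAut.conj ((h : G) * g)).injective]
  refine ⟨(h : G) * g, ?_, ?_⟩
  · rw [mem_normalizer_iff]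
    intro r
    refine ⟨hsub r, fun hr => ?_⟩
    rw [← hmap] at hr
    obtain ⟨s, hs, hsr⟩ := hr
    have : s = r := (MulAut.conj ((h : G) * g)).injective hsr
    rwa [← this]
  · rw [mul_smul]
    exact h.2

/-- the kernel of `G_y` on the `G_y`-orbit of `x` -/
def KOrb (G : Type*) [Group G] {Ω : Type*} [MulAction G Ω] (y x : Ω) : Subgroup G :=
  stabilizer G y ⊓ ⨅ g : stabilizer G y, stabilizer G ((g : G) • x)

theorem KOrb_le (y x : Ω) : KOrb G y x ≤ stabilizer G y := inf_le_left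

theorem le_KOrb {y x : Ω} {K : Subgroup G} (h1 : K ≤ stabilizer G y)
    (h2 : ∀ g ∈ stabilizer G y, K ≤ stabilizer G (g • x)) : K ≤ KOrb G y x :=
  le_inf h1 (le_iInf fun g => h2 g g.2)

theorem KOrb_le_smul {y x : Ω} {g : G} (hg : g ∈ stabilizer G y) : KOrb G y x ≤ stabilizer G (g • x) :=
  inf_le_right.trans (iInf_le (fun g : stabilizer G y => stabilizer G ((g : G) • x)) ⟨g, hg⟩)

theorem KOrb_norm (y x : Ω) : stabilizer G y ≤ normalizer (KOrb G y x : Set G) := by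
  refine le_normalizer_of_map_le fun g hg => ?_
  refine le_KOrb ?_ ?_
  · rintro _ ⟨k, hk, rfl⟩
    exact mul_mem (mul_mem hg (KOrb_le y x hk)) (inv_mem hg)
  · rintro h hh _ ⟨k, hk, rfl⟩
    have h1 := KOrb_le_smul (x := x) (mul_mem (inv_mem hg) hh) hk
    rw [mem_stabilizer_iff] at h1 ⊢
    have e : (MulAut.conj g).toMonoidHom k = g * k * g⁻¹ := rfl
    rw [e, mul_smul, mul_smul, ← mul_smul g⁻¹ h x, h1, mul_smul, smul_inv_smul]

/-- **Case 3.**  `V` a functor, `ρ y x`, `R` a Sylow subgroup of `G_y` and of `G_x`, `1 ≠ J ≤ R` normal in `N_G(R)`,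
centralising all `V (g • x)`, `g ∈ G_y`, and such that the Frattini argument holds for `J` in `G_y`. -/
theorem case3_core [Finite G] (P : PP G Ω) {ρ : Ω → Ω → Prop} {d : ℕ} (D : Dir G ρ d) {p : ℕ} [Fact p.Prime]
    {V : Ω → Subgroup G} (hV : Fun G V) {x y : Ω} (hyx : ρ y x) (hVx : V x ≠ ⊥)
    {R J : Subgroup G} (hRy : R ≤ stabilizer G y) (hRx : R ≤ stabilizer G x)
    (hc : Nat.card R = p ^ (Nat.card (stabilizer G y)).factorization p)
    (hJ : J ≠ ⊥) (hJR : J ≤ R) (hJn : normalizer (R : Set G) ≤ normalizer (J : Set G))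
    (hJV : ∀ g ∈ stabilizer G y, J ≤ centralizer (V (g • x) : Set G))
    (hFr : ∀ K : Subgroup G, K ≤ stabilizer G y → stabilizer G y ≤ normalizer (K : Set G) → J ≤ K →
      ∀ g ∈ stabilizer G y, ∃ w ∈ normalizer (J : Set G), w ∈ stabilizer G y ∧ ∃ k ∈ K, g = w * k) : False := by
  have hxy : y ≠ x := by
    rintro rfl
    exact D.not_le hyx le_rfl
  obtain ⟨n, hn, hnx⟩ := exists_norm_move P hRy hRx hc
  have hJK : J ≤ KOrb G y x := le_KOrb (hJR.trans hRy) fun g hg =>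
    (hJV g hg).trans (hV.centralizer_le P (hV.ne_bot P hVx _))
  refine false_of_transport P hxy hJ (hJR.trans hRy) (hJn hn) hnx fun g hg => ?_
  obtain ⟨w, hw, hwy, k, hk, rfl⟩ := hFr (KOrb G y x) (KOrb_le y x) (KOrb_norm y x) hJK g hg
  refine ⟨w, hw, hwy, ?_⟩
  have h2 := KOrb_le_smul (x := x) (one_mem (stabilizer G y)) hk
  rw [one_smul, mem_stabilizer_iff] at h2
  rw [mul_smul, h2]

/-- `J(R) ≠ 1` if `R` contains a nontrivial elementary abelian subgroup -/
theorem JE_ne_bot [Finite G] {r : ℕ} {R D : Subgroup G} (hD : D ≤ R) (hE : IsEA r D) (hne : D ≠ ⊥) : JE r R ≠ ⊥ := by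
  intro h
  obtain ⟨A, hA⟩ := exists_maxEA r R
  have h1 : A = ⊥ := le_bot_iff.1 (h ▸ hA.le_JE)
  have h2 := hA.2.2 D hD hE
  rw [h1, card_bot] at h2
  exact hne (eq_bot_of_card_le D h2)

/-- **Case 3** for all Sylow subgroups `R` of `G_y`: `J(R)` does not centralise `V x ≤ Q y`. -/
theorem false_of_case3 [Finite G] (P : PP G Ω) {ra : Ω → Ω → Prop} {da : ℕ} (A : Dir G ra da) {r : ℕ}
    [Fact r.Prime] (hr : ¬ r ∣ da) {V : Ω → Subgroup G} (hV : Fun G V) {x y : Ω} (hxy : ra x y) (hne : V x ≠ ⊥)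
    (hJ : ∀ R : Subgroup G, SylIn r (stabilizer G y) R → JE r R ≤ centralizer (V x : Set G))
    (hJne : ∀ R : Subgroup G, SylIn r (stabilizer G y) R → JE r R ≠ ⊥) : False := by
  obtain ⟨R, hRx, hRy⟩ := exists_sylIn_both (G := G) A hr hxy
  refine case3_core P A (p := r) hV (A.symm hxy) hne hRy.1 hRx.1 hRy.2 (hJne R hRy) (JE_le r R)
    (normalizer_le_JE r R) (fun g hg => ?_) (fun K hK hn hJK => frattini_JE hRy hK hn hJK)
  have h1 := hJ _ (hRy.of_mem (inv_mem hg))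
  rw [JE_conj] at h1
  intro j hj
  have h2 : g⁻¹ * j * g⁻¹⁻¹ ∈ centralizer (V x : Set G) := h1 ⟨j, hj, rfl⟩
  rw [mem_centralizer_iff] at h2 ⊢
  intro v hv
  rw [SetLike.mem_coe, hV.smul] at hv
  obtain ⟨u, hu, rfl⟩ := hv
  have h3 := h2 u hu
  have e : (MulAut.conj g).toMonoidHom u = g * u * g⁻¹ := rfl
  rw [e]
  have h4 : g * (u * (g⁻¹ * j * g⁻¹⁻¹)) * g⁻¹ = g * (g⁻¹ * j * g⁻¹⁻¹ * u) * g⁻¹ := by rw [h3]
  have e1 : g * (u * (g⁻¹ * j * g⁻¹⁻¹)) * g⁻¹ = g * u * g⁻¹ * j := by group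
  have e2 : g * (g⁻¹ * j * g⁻¹⁻¹ * u) * g⁻¹ = j * (g * u * g⁻¹) := by group
  rw [← e1, ← e2, h4]

/-- `O_r(G_y)` lies in all Sylow subgroups of `G_y` -/
theorem RCore.le_sylIn [Finite G] {r : ℕ} [Fact r.Prime] {Q : Ω → Subgroup G} (h : RCore G r Q) {y : Ω}
    {R : Subgroup G} (hR : SylIn r (stabilizer G y) R) : Q y ≤ R := by
  obtain ⟨R', hR', hQ⟩ := exists_sylIn_ge (h.pg y) (h.fn.le y)
  obtain ⟨s, hs, rfl⟩ := hR'.conj hR
  rw [← map_conj_eq_of_mem (h.fn.norm y hs)]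
  exact map_mono hQ

theorem RCore.false_of_case3 [Finite G] (P : PP G Ω) {r : ℕ} {Q : Ω → Subgroup G} (_h : RCore G r Q)
    {ra : Ω → Ω → Prop} {da : ℕ} (A : Dir G ra da)
    [Fact r.Prime] (hr : ¬ r ∣ da) {V : Ω → Subgroup G} (hV : Fun G V) {x y : Ω} (hxy : ra x y) (hne : V x ≠ ⊥)
    (hJ : ∀ R : Subgroup G, SylIn r (stabilizer G y) R → JE r R ≤ centralizer (V x : Set G))
    (hJne : ∀ R : Subgroup G, SylIn r (stabilizer G y) R → JE r R ≠ ⊥) : False :=
  Cfsg.Agent.R2.T3544.false_of_case3 P A hr hV hxy hne hJ hJne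

/-- **Case 3**: `V x ≤ Y_y := Ω₁Z(J(O_r(G_y)))` for a neighbour `y` of `x`, `J(R)` centralises `Y_y`: impossible. -/
theorem RCore.false_of_le_YE [Finite G] (P : PP G Ω) {r : ℕ} {Q : Ω → Subgroup G} (h : RCore G r Q)
    {ra : Ω → Ω → Prop} {da : ℕ} (A : Dir G ra da)
    [Fact r.Prime] (hr : ¬ r ∣ da) {V : Ω → Subgroup G} (hV : Fun G V) {x y : Ω} (hxy : ra x y) (hne : V x ≠ ⊥)
    (hVY : V x ≤ YE r (Q y))
    (hJ : ∀ R : Subgroup G, SylIn r (stabilizer G y) R → JE r R ≤ centralizer (YE r (Q y) : Set G)) : False :=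
  Cfsg.Agent.R2.T3544.false_of_case3 P A hr hV hxy hne (fun R hR => (hJ R hR).trans (centralizer_le hVY))
    (fun R hR => JE_ne_bot ((hVY.trans (YE_le r (Q y))).trans (h.le_sylIn hR)) ((YE_isEA r (Q y)).mono hVY) hne)

end

end Cfsg.Agent.R2.T3544
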