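import Cfsg.Agent.R2.T3544.OffFin1
import Cfsg.Agent.R2.T3544.OffB1
import Cfsg.Agent.R2.T3544.OffC3

/-!
# S3544, LOC: the edge version, Claims 1 and 2 (helper26)

`E` is an `r`-subgroup of `G_xy`, normal in `G_xy`, containing `Q x` and `Q y` (in the application `E = O_r(G_xy)`).
-/

set_option autoImplicit false

namespace Cfsg.Agent.R2.T3544

open Subgroup MulAction Cfsg
open scoped commutatorElement

variable {G : Type*} [Group G] {Ω : Type*} [MulAction G Ω] {Q V : Ω → Subgroup G} {r : ℕ} {rc : Ω → Ω → Prop} {dc : ℕ}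

theorem RCore.JE_ne_bot_eb [Finite G] [Fact r.Prime] (h : RCore G r Q) (P : PP G Ω) {x : Ω} (hne : Q x ≠ ⊥) (y : Ω) :
    JE r (Q y) ≠ ⊥ := by
  obtain ⟨V, hV⟩ := MinFun.exist P h x hne
  exact T3544.JE_ne_bot (hV.le y) (hV.isEA y) (hV.ne y)

/-- the rank of `Q x` does not depend on `x` -/
theorem Fun.card_maxEA_eb [Finite G] (h : Fun G Q) (P : PP G Ω) {x y : Ω} {A B : Subgroup G} (hA : MaxEA r (Q x) A)
    (hB : MaxEA r (Q y) B) : Nat.card A = Nat.card B := by
  have key : ∀ {x y : Ω} {A B : Subgroup G}, MaxEA r (Q x) A → MaxEA r (Q y) B → Nat.card A ≤ Nat.card B := by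
    intro x y A B hA hB
    obtain ⟨g, rfl⟩ := P.trans x y
    have h1 := hA.conj g
    rw [← h.smul] at h1
    have h2 := hB.2.2 _ h1.1 h1.2.1
    rwa [card_map_of_injective (MulAut.conj g).injective] at h2
  exact le_antisymm (key hA hB) (key hB hA)

/-- **Claim 1**: `J(E) ≰ Q y` -/
theorem RCore.JE_edge_not_le [Finite G] [Fact r.Prime] (h : RCore G r Q) (P : PP G Ω) (C : Dir G rc dc) {x y : Ω}
    (hxy : rc x y) {E : Subgroup G} (hx : Q x ≤ E) (hy : Q y ≤ E) (hne : Q x ≠ ⊥) : ¬ JE r E ≤ Q y := by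
  intro hJ
  have e : JE r (Q y) = JE r E := JE_eq hy hJ
  refine (h.fn.JE r).not_le P C hxy (h.JE_ne_bot_eb P hne x) ?_
  show JE r (Q x) ≤ JE r (Q y)
  rw [e]
  refine iSup₂_le fun B hB => MaxEA.le_JE ⟨hB.1.trans hx, hB.2.1, fun D hD hD' => ?_⟩
  obtain ⟨A, hA⟩ := exists_maxEA r (Q y)
  rw [h.fn.card_maxEA_eb P hB hA]
  exact ((maxEA_iff hy hJ).1 hA).2.2 D hD hD'

theorem RCore.JE_edge_not_le' [Finite G] [Fact r.Prime] (h : RCore G r Q) (P : PP G Ω) (C : Dir G rc dc) {x y : Ω}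
    (hxy : rc x y) {E : Subgroup G} (hx : Q x ≤ E) (hy : Q y ≤ E) (hne : Q x ≠ ⊥) : ¬ JE r E ≤ Q x :=
  h.JE_edge_not_le P C (C.symm hxy) hy hx (h.fn.ne_bot P hne y)

/-- the edge group and subnormal subgroups of `G_y` in `G_xy` -/
theorem RCore.edge_inf_le_eb (h : RCore G r Q) {x y : Ω} {E K : Subgroup G} (hE : IsPGroup r E)
    (hEle : E ≤ stabilizer G x ⊓ stabilizer G y) (hEn : stabilizer G x ⊓ stabilizer G y ≤ normalizer (E : Set G))
    (hK : SubnIn K (stabilizer G y)) (hKx : K ≤ stabilizer G x) : E ⊓ K ≤ Q y := by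
  have h1 : SubnIn (E ⊓ K) K := by
    have h2 := (SubnIn.of_normal hEle hEn).inf K
    rwa [inf_eq_right.2 (le_inf hKx hK.1)] at h2
  exact h.max (h1.trans hK) (hE.to_le inf_le_left)

/-- **Claim 2, first case**: if `V x ≤ Q y` then `J(E)` does not centralise `⟨V x ^ G_y⟩` -/
theorem RCore.JE_edge_acts [Finite G] [Fact r.Prime] (h : RCore G r Q) (P : PP G Ω) (C : Dir G rc dc)
    (hV : Fun G V) {x y : Ω} (hxy : rc x y) {E : Subgroup G} (hE : IsPGroup r E)
    (hEle : E ≤ stabilizer G x ⊓ stabilizer G y) (hEn : stabilizer G x ⊓ stabilizer G y ≤ normalizer (E : Set G))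
    (hx : Q x ≤ E) (hy : Q y ≤ E) (hne : Q x ≠ ⊥) (hVne : V x ≠ ⊥) :
    ¬ JE r E ≤ centralizer (nclo G (V x) y : Set G) := by
  intro hJ
  refine h.JE_edge_not_le P C hxy hx hy hne ?_
  have h1 : JE r E ≤ KOrb G y x := by
    refine le_KOrb ((JE_le r E).trans (hEle.trans inf_le_right)) fun g hg => ?_
    refine (hJ.trans (centralizer_le ?_)).trans (hV.centralizer_le P (hV.ne_bot P hVne (g • x)))
    rw [hV.smul]
    exact le_iSup (fun g : stabilizer G y => (V x).map (MulAut.conj (g : G)).toMonoidHom) ⟨g, hg⟩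
  refine le_trans (le_inf (JE_le r E) h1) (h.edge_inf_le_eb hE hEle hEn (SubnIn.of_normal (KOrb_le y x)
    (KOrb_norm y x)) ?_)
  have h2 := KOrb_le_smul (G := G) (y := y) (x := x) (one_mem (stabilizer G y))
  rwa [one_smul] at h2

/-- normal closures in `G_y` and centralisers of normal subgroups of `G_y` -/
theorem nclo_le_eb {U N : Subgroup G} {y : Ω} (hN : stabilizer G y ≤ normalizer (N : Set G)) (h : U ≤ N) :
    nclo G U y ≤ N :=
  iSup_le fun g => (map_mono h).trans (map_conj_of_mem_normalizer (hN g.2)).le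

theorem norm_cent_eb {U X : Subgroup G} (h : X ≤ normalizer (U : Set G)) :
    X ≤ normalizer (centralizer (U : Set G) : Set G) := by
  refine le_normalizer_of_map_le fun g hg => ?_
  rintro _ ⟨c, hc, rfl⟩
  rw [mem_centralizer_iff]
  intro u hu
  have h1 : g⁻¹ * u * g ∈ U := by
    have h6 := (mem_normalizer_iff.1 (h (inv_mem hg)) u).1 hu
    simpa using h6
  have h7 := mem_centralizer_iff.1 hc _ h1
  show u * (g * c * g⁻¹) = g * c * g⁻¹ * u
  calc u * (g * c * g⁻¹) = g * ((g⁻¹ * u * g) * c) * g⁻¹ := by group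
    _ = g * (c * (g⁻¹ * u * g)) * g⁻¹ := by rw [h7]
    _ = g * c * g⁻¹ * u := by group

theorem norm_comm_eb {U W X : Subgroup G} (h : X ≤ normalizer (U : Set G)) (h' : X ≤ normalizer (W : Set G)) :
    X ≤ normalizer ((⁅U, W⁆ : Subgroup G) : Set G) := by
  refine le_normalizer_of_map_le fun g hg => ?_
  rw [map_commutator, map_conj_of_mem_normalizer (h hg), map_conj_of_mem_normalizer (h' hg)]

/-- **Claim 2, second case**: if `V x ≰ Q y`, `V x ≤ J(E)`, then `J(E)` does not centralise `[⟨V x ^ G_y⟩, Q y]` -/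
theorem RCore.JE_edge_acts' [Finite G] [Fact r.Prime] (h : RCore G r Q)
    (hcen : ∀ x, centralizer (Q x : Set G) ⊓ stabilizer G x ≤ Q x) {x y : Ω} {E : Subgroup G}
    (hVS : V x ≤ stabilizer G y) (hVJ : V x ≤ JE r E) (hn : ¬ V x ≤ Q y) :
    ¬ JE r E ≤ centralizer ((⁅nclo G (V x) y, Q y⁆ : Subgroup G) : Set G) := by
  intro hJ
  apply hn
  have hHS := nclo_le (y := y) hVS
  have hHn := nclo_norm (V x) y
  have hYn := norm_comm_eb hHn (h.fn.norm y)
  have hYQ : ⁅nclo G (V x) y, Q y⁆ ≤ Q y := by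
    rw [commutator_comm, ← le_normalizer_iff_commutator_le_left]
    exact hHS.trans (h.fn.norm y)
  refine (le_nclo (V x) y).trans (h.max (SubnIn.of_normal hHS hHn) ?_)
  exact isPGroup_of_chain (h.pg y) hYQ hHS (hcen y) le_rfl (nclo_le_eb (norm_cent_eb hYn) (hVJ.trans hJ))

/-- **Claim 2**: if no elementary abelian `A ≤ E` is a nontrivial best offender on `V x` or on `[V x, Q y]` then some
`D ≤ Ω₁Z(J(Q y))`, normal in `G_y`, has a nontrivial best offender `A`, an elementary abelian subgroup of `E` of maximal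
order -/
theorem RCore.exists_edge_off [Finite G] [Fact r.Prime] (h : RCore G r Q) (P : PP G Ω) (C : Dir G rc dc)
    (hr : ¬ r ∣ dc) (hcen : ∀ x, centralizer (Q x : Set G) ⊓ stabilizer G x ≤ Q x)
    (hV : MinFun G r Q V) {x y : Ω} (hxy : rc x y) {E : Subgroup G} (hE : IsPGroup r E)
    (hEle : E ≤ stabilizer G x ⊓ stabilizer G y) (hEn : stabilizer G x ⊓ stabilizer G y ≤ normalizer (E : Set G))
    (hx : Q x ≤ E) (hy : Q y ≤ E)
    (hno : ∀ D A : Subgroup G, (D = V x ∨ D = ⁅V x, Q y⁆) → A ≤ E → IsEA r A → BestOff A D →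
      A ≤ centralizer (D : Set G)) :
    ∃ D A : Subgroup G, (D = nclo G (V x) y ∨ D = ⁅nclo G (V x) y, Q y⁆) ∧ D ≤ YE r (Q y) ∧
      stabilizer G y ≤ normalizer (D : Set G) ∧ MaxEA r E A ∧ BestOff A D ∧ ¬ A ≤ centralizer (D : Set G) := by
  have hne : Q x ≠ ⊥ := fun h0 => hV.ne x (le_bot_iff.1 (h0 ▸ hV.le x))
  have hVS : V x ≤ stabilizer G y := (hV.le x).trans (h.nbr_le C hr (C.symm hxy))
  -- from a subgroup on which `J(E)` acts nontrivially
  have fin : ∀ D : Subgroup G, (D = nclo G (V x) y ∨ D = ⁅nclo G (V x) y, Q y⁆) → D ≤ YE r (Q y) →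
      stabilizer G y ≤ normalizer (D : Set G) → ¬ JE r E ≤ centralizer (D : Set G) →
      ∃ D A : Subgroup G, (D = nclo G (V x) y ∨ D = ⁅nclo G (V x) y, Q y⁆) ∧ D ≤ YE r (Q y) ∧
      stabilizer G y ≤ normalizer (D : Set G) ∧ MaxEA r E A ∧ BestOff A D ∧ ¬ A ≤ centralizer (D : Set G) := by
    intro D hD hDY hDn hJ
    have h1 : ∃ A, MaxEA r E A ∧ ¬ A ≤ centralizer (D : Set G) := by
      by_contra hcon
      push Not at hcon
      exact hJ (iSup₂_le hcon)
    obtain ⟨A, hA, hAc⟩ := h1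
    exact ⟨D, A, hD, hDY, hDn, hA, bestOff_of_maxEA hA ((hDY.trans (YE_le r (Q y))).trans hy)
      ((YE_isEA r (Q y)).mono hDY), hAc⟩
  have key : ∀ D : Subgroup G, (D = V x ∨ D = ⁅V x, Q y⁆) → D ≤ Q y → D ≤ V x → D ≤ YE r (Q y) := by
    intro D hD hDQ hDV
    have hEA : IsEA r D := (hV.isEA x).mono hDV
    exact le_YE' hDQ hEA fun A hA => hno D A hD (hA.1.trans hy) hA.2.1 (bestOff_of_maxEA hA hDQ hEA)
  by_cases hle : V x ≤ Q y
  · exact fin _ (Or.inl rfl) (nclo_le_eb ((h.fn.YE r).norm y) (key _ (Or.inl rfl) hle le_rfl)) (nclo_norm _ _)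
      (h.JE_edge_acts P C hV.fn hxy hE hEle hEn hx hy hne (hV.ne x))
  · have hQx : Q y ≤ stabilizer G x := h.nbr_le C hr hxy
    have h1 : ⁅V x, Q y⁆ ≤ V x := by
      rw [← le_normalizer_iff_commutator_le_left]
      exact hQx.trans (hV.fn.norm x)
    have h2 : ⁅V x, Q y⁆ ≤ Q y := by
      rw [commutator_comm, ← le_normalizer_iff_commutator_le_left]
      exact hVS.trans (h.fn.norm y)
    have h3 : ⁅V x, Q y⁆ ≤ YE r (Q y) := key _ (Or.inr rfl) h2 h1
    have hYn := (h.fn.YE r).norm y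
    have hHS := nclo_le (y := y) hVS
    have h4 : ⁅nclo G (V x) y, Q y⁆ ≤ YE r (Q y) := by
      have h5 := iSup_comm_le (A := fun g : stabilizer G y => (V x).map (MulAut.conj (g : G)).toMonoidHom)
        (B := fun _ : Unit => Q y) (N := YE r (Q y)) (fun g => ?_) (fun _ => (h.fn.le y).trans hYn) (fun g _ => ?_)
      · simpa [nclo] using h5
      · refine le_trans ?_ hYn
        exact (le_iSup (fun g : stabilizer G y => (V x).map (MulAut.conj (g : G)).toMonoidHom) g).trans hHS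
      · have h6 := map_mono (f := (MulAut.conj (g : G)).toMonoidHom) h3
        rw [map_commutator, h.fn.map_stab g.2, map_conj_of_mem_normalizer (hYn g.2)] at h6
        exact h6
    have h7 : V x ≤ YE r E := by
      refine T3544.le_YE' ((hV.le x).trans hx) (hV.isEA x) fun A hA => ?_
      exact hno (V x) A (Or.inl rfl) hA.1 hA.2.1 (bestOff_of_maxEA hA ((hV.le x).trans hx) (hV.isEA x))
    exact fin _ (Or.inr rfl) h4 (norm_comm_eb (nclo_norm _ _) (h.fn.norm y))
      (h.JE_edge_acts' hcen hVS (h7.trans (YE_le_JE r E)) hle)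

end Cfsg.Agent.R2.T3544
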