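import Cfsg.Agent.R2.T3544.OffA2
import Cfsg.Agent.R2.T3544.EdgeB
import Cfsg.Agent.R2.T3544.Edge

/-!
# S3544, LOC: the size lemma for `A ≤ O_r(G_xy)`, weak directions in the edge form
-/

set_option autoImplicit false

namespace Cfsg.Agent.R2.T3544

open Subgroup MulAction Cfsg
open scoped commutatorElement

section size

variable {G : Type*} [Group G]

/-- **the size lemma**, `A` not necessarily in `B` -/
theorem size_lemma' [Finite G] {r : ℕ} [Fact r.Prime] {S V X₁ X₂ A B D N₁ N₂ : Subgroup G}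
    (hV : MinInv S V) (hEA : IsEA r V) (hS1 : S ≤ normalizer (X₁ : Set G)) (hS2 : S ≤ normalizer (X₂ : Set G))
    (hX1 : X₁ ≤ S) (hX2 : X₂ ≤ S) (hcomm : ⁅X₁, X₂⁆ ≤ centralizer (V : Set G)) (hAX : A ≤ X₁)
    (hAB : A ≤ normalizer (B : Set G)) (hBX : B ≤ X₁)
    (hA : IsPGroup r A) (hD : D = V ∨ D = ⁅V, B⁆) (hbest : BestOff A D) (hnc : ¬ D ≤ centralizer (A : Set G))
    (hN1 : MinInv X₁ N₁) (hN1V : N₁ ≤ V) (hN2 : MinInv X₂ N₂) (hN2V : N₂ ≤ V) : Nat.card N₂ < Nat.card N₁ := by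
  have hBV : B ≤ normalizer (V : Set G) := (hBX.trans hX1).trans hV.2.1
  have hAV : A ≤ normalizer (V : Set G) := (hAX.trans hX1).trans hV.2.1
  have hDV : D ≤ V := by
    rcases hD with rfl | rfl
    · exact le_rfl
    · exact comm_le_l hBV
  have hDA : A ≤ normalizer (D : Set G) := by
    rcases hD with rfl | rfl
    · exact hAV
    · exact norm_comm_off hAV hAB
  have hD2 : X₂ ≤ normalizer (D : Set G) := by
    rcases hD with rfl | rfl
    · exact hX2.trans hV.2.1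
    · refine le_normalizer_of_map_le fun x hx => ?_
      rw [Subgroup.map_commutator, map_conj_of_mem_normalizer (hV.2.1 (hX2 hx)), commutator_le]
      rintro v hv _ ⟨b, hb, rfl⟩
      show ⁅v, x * b * x⁻¹⁆ ∈ _
      have h2 : ⁅b⁻¹, x⁆ ∈ centralizer (V : Set G) :=
        hcomm (commutator_mem_commutator (hBX (inv_mem hb)) hx)
      have h3 : v * ⁅b⁻¹, x⁆ = ⁅b⁻¹, x⁆ * v := mem_centralizer_iff.1 h2 v hv
      have e : ⁅v, x * b * x⁻¹⁆ = ⁅v, b⁆ := by
        have e1 : x * b * x⁻¹ = b * ⁅b⁻¹, x⁆ := by rw [commutatorElement_def]; group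
        have e2 : ⁅v, b * ⁅b⁻¹, x⁆⁆ = ⁅v, b⁆ * (b * (v * ⁅b⁻¹, x⁆ * v⁻¹ * ⁅b⁻¹, x⁆⁻¹) * b⁻¹) := by
          rw [commutatorElement_def, commutatorElement_def v b]; group
        rw [e1, e2, h3]; group
      rw [e]
      exact commutator_mem_commutator hv hb
  -- a constituent not centralized
  have key : ∃ s ∈ S, ¬ (N₁.map (MulAut.conj s).toMonoidHom) ⊓ D ≤ centralizer (A : Set G) := by
    by_contra hcon
    push Not at hcon
    apply hnc
    rcases hD with rfl | rfl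
    · refine hV.le_of_conj_le hN1V hN1.1 fun s hs => ?_
      have h1 : N₁.map (MulAut.conj s).toMonoidHom ≤ D := by
        have := map_mono (f := (MulAut.conj s).toMonoidHom) hN1V
        rwa [map_conj_of_mem_normalizer (hV.2.1 hs)] at this
      exact (le_inf le_rfl h1).trans (hcon s hs)
    · let W : Subgroup G :=
        { carrier := {v | v ∈ V ∧ ∀ b ∈ B, ⁅v, b⁆ ∈ centralizer (A : Set G)}
          one_mem' := ⟨one_mem _, fun b _ => by rw [commutatorElement_one_left]; exact one_mem _⟩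
          mul_mem' := by
            rintro v w ⟨hv, hv'⟩ ⟨hw, hw'⟩
            refine ⟨mul_mem hv hw, fun b hb => ?_⟩
            have h1 : ⁅w, b⁆ ∈ V := comm_le_l hBV (commutator_mem_commutator hw hb)
            have h2 : v * ⁅w, b⁆ = ⁅w, b⁆ * v := hEA.1 _ hv _ h1
            have e : ⁅v * w, b⁆ = v * ⁅w, b⁆ * v⁻¹ * ⁅v, b⁆ := by
              simp only [commutatorElement_def]; group
            rw [e, h2, mul_inv_cancel_right]
            exact mul_mem (hw' b hb) (hv' b hb)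
          inv_mem' := by
            rintro v ⟨hv, hv'⟩
            refine ⟨inv_mem hv, fun b hb => ?_⟩
            have h1 : ⁅v, b⁆⁻¹ ∈ V := inv_mem (comm_le_l hBV (commutator_mem_commutator hv hb))
            have h2 : v⁻¹ * ⁅v, b⁆⁻¹ = ⁅v, b⁆⁻¹ * v⁻¹ := hEA.1 _ (inv_mem hv) _ h1
            have e : ⁅v⁻¹, b⁆ = v⁻¹ * ⁅v, b⁆⁻¹ * v := by
              simp only [commutatorElement_def]; group
            rw [e, h2, inv_mul_cancel_right]
            exact inv_mem (hv' b hb) }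
      have hW : V ≤ W := by
        refine hV.le_of_conj_le hN1V hN1.1 fun s hs => ?_
        have h1 : N₁.map (MulAut.conj s).toMonoidHom ≤ V := by
          have := map_mono (f := (MulAut.conj s).toMonoidHom) hN1V
          rwa [map_conj_of_mem_normalizer (hV.2.1 hs)] at this
        have h2 : X₁ ≤ normalizer ((N₁.map (MulAut.conj s).toMonoidHom : Subgroup G) : Set G) :=
          norm_map_conj hN1.2.1 (hS1 hs)
        intro v hv
        refine ⟨h1 hv, fun b hb => hcon s hs ⟨?_, commutator_mem_commutator (h1 hv) hb⟩⟩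
        exact comm_le_l (hBX.trans h2) (commutator_mem_commutator hv hb)
      rw [commutator_le]
      exact fun v hv b hb => (hW hv).2 b hb
  obtain ⟨s, hs, hs'⟩ := key
  have h1 := size_aux hV hEA hS2 hX2 hcomm hAX hA hDV hDA hD2 hbest
    (hN1.conj (hS1 hs)) hs' hN2 hN2V
  rwa [card_map_of_injective (MulAut.conj s).injective] at h1

/-- the least order of an invariant subgroup grows with the group -/
theorem mi_mono {W W' V : Subgroup G} (h : W ≤ W') (hV : V ≠ ⊥) (hW : W' ≤ normalizer (V : Set G)) :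
    mi W V ≤ mi W' V := by
  obtain ⟨K, hK, hne, hn, hc⟩ := exists_mi hV hW
  rw [← hc]
  exact mi_le hK hne (h.trans hn)

end size

variable {G : Type*} [Group G] {Ω : Type*} [MulAction G Ω] {r : ℕ} {Q V : Ω → Subgroup G}

theorem not_le_cent_symm {A D : Subgroup G} (h : ¬ A ≤ centralizer (D : Set G)) : ¬ D ≤ centralizer (A : Set G) := by
  intro h1
  apply h
  intro a ha
  rw [mem_centralizer_iff]
  intro d hd
  exact (mem_centralizer_iff.1 (h1 hd) a ha).symm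

/-- offenders of `X₁` against a commuting functor `X₂` -/
theorem mi_lt_gen [Finite G] [Fact r.Prime] (hV : MinFun G r Q V) {X₁ X₂ : Ω → Subgroup G} (h1 : Fun G X₁)
    (h2 : Fun G X₂) {x : Ω} (hcomm : ⁅X₁ x, X₂ x⁆ ≤ Q x) {A B D : Subgroup G} (hAX : A ≤ X₁ x)
    (hAB : A ≤ normalizer (B : Set G)) (hBX : B ≤ X₁ x) (hA : IsPGroup r A) (hD : D = V x ∨ D = ⁅V x, B⁆)
    (hbo : BestOff A D) (hna : ¬ A ≤ centralizer (D : Set G)) : mi (X₂ x) (V x) < mi (X₁ x) (V x) := by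
  have hVm : MinInv (stabilizer G x) (V x) := ⟨hV.ne x, hV.fn.norm x, hV.min x⟩
  obtain ⟨K₁, hK1, hK1n, hK1W, hK1c⟩ := exists_mi (hV.ne x) ((h1.le x).trans (hV.fn.norm x))
  obtain ⟨K₂, hK2, hK2n, hK2W, hK2c⟩ := exists_mi (hV.ne x) ((h2.le x).trans (hV.fn.norm x))
  have hc : ⁅X₁ x, X₂ x⁆ ≤ centralizer (V x : Set G) := by
    refine hcomm.trans fun q hq => ?_
    rw [mem_centralizer_iff]
    intro v hv
    exact ((mem_centralizer_iff.1 (hV.cent x hv)) q hq).symm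
  rw [← hK1c, ← hK2c]
  exact size_lemma' hVm (hV.isEA x) (h1.norm x) (h2.norm x) (h1.le x) (h2.le x) hc hAX hAB hBX hA hD hbo
    (not_le_cent_symm hna) (MinInv.of_mi hK1 hK1n hK1W hK1c) hK1 (MinInv.of_mi hK2 hK2n hK2W hK2c) hK2

/-- the kernel `M_a` as a functor -/
theorem Mk_fun' [Finite G] [Fact r.Prime] {ra : Ω → Ω → Prop} {da : ℕ} (A : Dir G ra da) : Fun G (Mk G ra) :=
  Fun.of_map_le (Mk_le ra) fun g x => by
    rintro _ ⟨m, hm, rfl⟩
    refine le_Mk (K := (Mk G ra x).map (MulAut.conj g).toMonoidHom) ?_ ?_ ⟨m, hm, rfl⟩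
    · rw [stab_smul]
      exact map_mono (Mk_le ra x)
    · intro y hy
      have h1 : ra x (g⁻¹ • y) := by
        have := A.smul g⁻¹ hy
        rwa [inv_smul_smul] at this
      have h2 := map_mono (f := (MulAut.conj g).toMonoidHom) (Mk_le_nbr h1)
      rwa [← stab_smul, smul_inv_smul] at h2

/-- a best offender in `O_xy`, `y ~_a x`: `m_a(V) < n_a(V)` -/
theorem mi_Mk_lt [Finite G] [Fact r.Prime] (h : RCore G r Q) {ra : Ω → Ω → Prop}
    {da : ℕ} (A : Dir G ra da) (hra : ¬ r ∣ da)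
    (hV : MinFun G r Q V) {x y : Ω} (hxy : ra x y) {D E : Subgroup G} (hD : D = V x ∨ D = ⁅V x, Q y⁆)
    (hE : E ≤ EQ G r x y) (hEE : IsEA r E) (hbo : BestOff E D) (hna : ¬ E ≤ centralizer (D : Set G)) :
    mi (Mk G ra x) (V x) < mi (LQ G r ra x) (V x) := by
  refine mi_lt_gen hV (LQ_fun A) (Mk_fun' (r := r) A) (h.comm_LQ_Mk A x) (hE.trans (le_LQ hxy)) (B := Q y) ?_
    ((h.le_EQ' A hra hxy).trans (le_LQ hxy)) hEE.isPGroup hD hbo hna
  exact (hE.trans (EQ_le_right x y)).trans (h.fn.norm y)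

/-- a best offender in `O_xy`, `y ~_a x`: `n_b(V) < n_a(V)` -/
theorem mi_LQ_lt [Finite G] [Fact r.Prime] (h : RCore G r Q) {ra rb : Ω → Ω → Prop}
    {da db : ℕ} (A : Dir G ra da) (B : Dir G rb db) (hc : da.Coprime db) (hra : ¬ r ∣ da)
    (hV : MinFun G r Q V) {x y : Ω} (hxy : ra x y) {D E : Subgroup G} (hD : D = V x ∨ D = ⁅V x, Q y⁆)
    (hE : E ≤ EQ G r x y) (hEE : IsEA r E) (hbo : BestOff E D) (hna : ¬ E ≤ centralizer (D : Set G)) :
    mi (LQ G r rb x) (V x) < mi (LQ G r ra x) (V x) :=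
  lt_of_le_of_lt (mi_mono (LQ_le_Mk B A hc.symm hra x) (hV.ne x)
    (((Mk_fun' (r := r) A).le x).trans (hV.fn.norm x))) (mi_Mk_lt h A hra hV hxy hD hE hEE hbo hna)

/-- direction `ρ` is weak for `V`: no subgroup of `O_xy` is a non-trivial best offender on `V_x` or `[V_x, Q_y]` -/
def EdgeWeak (G : Type*) [Group G] {Ω : Type*} [MulAction G Ω] (r : ℕ) (Q V : Ω → Subgroup G)
    (ρ : Ω → Ω → Prop) : Prop :=
  ∀ x y : Ω, ρ x y → ∀ D A : Subgroup G, (D = V x ∨ D = ⁅V x, Q y⁆) → A ≤ EQ G r x y → IsEA r A → BestOff A D →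
    A ≤ centralizer (D : Set G)

/-- **one of the two directions is weak** -/
theorem exists_edgeWeak [Finite G] [Fact r.Prime] (P : PP G Ω) (h : RCore G r Q) {ra rb : Ω → Ω → Prop}
    {da db : ℕ} (A : Dir G ra da) (B : Dir G rb db) (hc : da.Coprime db) (hra : ¬ r ∣ da) (hrb : ¬ r ∣ db)
    (hV : MinFun G r Q V) : EdgeWeak G r Q V ra ∨ EdgeWeak G r Q V rb := by
  by_contra hcon
  rw [not_or] at hcon
  obtain ⟨hA, hB⟩ := hcon
  unfold EdgeWeak at hA hB
  push Not at hA hB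
  obtain ⟨x1, y1, h1, D1, E1, hD1, hE1, he1, hb1, hn1⟩ := hA
  obtain ⟨x2, y2, h2, D2, E2, hD2, hE2, he2, hb2, hn2⟩ := hB
  have l1 := mi_LQ_lt h A B hc hra hV h1 hD1 hE1 he1 hb1 hn1
  have l2 := mi_LQ_lt h B A hc.symm hrb hV h2 hD2 hE2 he2 hb2 hn2
  rw [mi_fun P (LQ_fun A) hV.fn hV.ne x2 x1, mi_fun P (LQ_fun B) hV.fn hV.ne x2 x1] at l2
  exact absurd l1 (not_lt.2 l2.le)

/-- **edge form of helper24's theorem** (helper26): in the weak direction `c` of a minimal normal functor `V`, the functor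
`D_y = ⟨V_x : x ~_c y⟩` or `[⟨V_x⟩, Q_y]` has a non-trivial best offender in `𝒜(O_xy)` -/
theorem EdgeWeak.exists_off [Finite G] [Fact r.Prime] (h : RCore G r Q) (P : PP G Ω) {rc : Ω → Ω → Prop} {dc : ℕ}
    (C : Dir G rc dc) (hr : ¬ r ∣ dc) (hcen : ∀ x, centralizer (Q x : Set G) ⊓ stabilizer G x ≤ Q x)
    (hV : MinFun G r Q V) (hw : EdgeWeak G r Q V rc) {x y : Ω} (hxy : rc x y) :
    ∃ D A : Subgroup G, (D = nclo G (V x) y ∨ D = ⁅nclo G (V x) y, Q y⁆) ∧ D ≤ YE r (Q y) ∧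
      stabilizer G y ≤ normalizer (D : Set G) ∧ MaxEA r (EQ G r x y) A ∧ BestOff A D ∧
      ¬ A ≤ centralizer (D : Set G) :=
  h.exists_edge_off P C hr hcen hV hxy (EQ_isPGroup x y) (EQ_le x y) (EQ_norm x y) (h.le_EQ C hr hxy)
    (h.le_EQ' C hr hxy) fun D A hD hA hAE hb => hw x y hxy D A hD hA hAE hb

end Cfsg.Agent.R2.T3544
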