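import Cfsg.Agent.R2.T3544.Fun
import Cfsg.Agent.R2.T3544.LocSolW

/-!
# S3544: soluble point stabilizers, `F(G_x)` an `r`-group (characteristic subgroups of Sylow subgroups)
-/

set_option autoImplicit false

namespace Cfsg.Agent.R2.T3544

open Subgroup MulAction

universe u v

section

variable {G : Type*} [Group G] {Ω : Type*} [MulAction G Ω]

/-- the points reached from `x` by steps `(g • x, g • y)` -/
inductive StepReach (G : Type*) [Group G] {Ω : Type*} [MulAction G Ω] (x y : Ω) : Ω → Prop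
  | base : StepReach G x y x
  | step (g : G) : StepReach G x y (g • x) → StepReach G x y (g • y)

theorem StepReach.smul {x y z : Ω} (h : StepReach G x y z) {w : G} (hw : StepReach G x y (w • x)) :
    StepReach G x y (w • z) := by
  induction h with
  | base => exact hw
  | step g _ ih =>
    rw [← mul_smul] at ih ⊢
    exact StepReach.step (w * g) ih

theorem StepReach.pow {x y : Ω} {w : G} (hw : StepReach G x y (w • x)) (n : ℕ) :
    StepReach G x y (w ^ n • x) := by
  induction n with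
  | zero => rw [pow_zero, one_smul]; exact StepReach.base
  | succ n ih =>
    rw [pow_succ', mul_smul]
    exact ih.smul hw

theorem StepReach.inv [Finite G] {x y : Ω} {w : G} (hw : StepReach G x y (w • x)) :
    StepReach G x y (w⁻¹ • x) := by
  have h1 : w⁻¹ ∈ Submonoid.powers w :=
    mem_powers_iff_mem_zpowers.2 (inv_mem (mem_zpowers w))
  obtain ⟨n, hn⟩ := h1
  have hn' : w ^ n = w⁻¹ := hn
  rw [← hn']
  exact hw.pow n

/-- a nontrivial subgroup `C ≤ G_x` whose normalizer moves `x` to `y` and whose normalizer in `G_x` is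
transitive on the `G_x`-orbit of `y` does not exist -/
theorem false_of_transport [Finite G] (P : PP G Ω) {x y : Ω} (hxy : x ≠ y) {C : Subgroup G} (hC : C ≠ ⊥)
    (hCx : C ≤ stabilizer G x) {n : G} (hn : n ∈ normalizer (C : Set G)) (hnx : n • x = y)
    (htr : ∀ g ∈ stabilizer G x, ∃ w ∈ normalizer (C : Set G), w ∈ stabilizer G x ∧ w • y = g • y) :
    False := by
  have hreach : ∀ z, StepReach G x y z → ∃ m ∈ normalizer (C : Set G), m • x = z := by
    intro z hz
    induction hz with
    | base => exact ⟨1, one_mem _, one_smul _ _⟩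
    | step g _ ih =>
      obtain ⟨m, hm, hmx⟩ := ih
      have h1 : m⁻¹ * g ∈ stabilizer G x := by
        rw [mem_stabilizer_iff, mul_smul, ← hmx, inv_smul_smul]
      obtain ⟨w, hw, hwx, hwy⟩ := htr _ h1
      refine ⟨m * w * n, mul_mem (mul_mem hm hw) hn, ?_⟩
      rw [mul_smul, hnx, mul_smul, hwy, mul_smul, smul_inv_smul]
  let K : Subgroup G := ⨅ z : {z // StepReach G x y z}, stabilizer G z.1
  have hCK : C ≤ K := by
    refine le_iInf fun ⟨z, hz⟩ => ?_
    obtain ⟨m, hm, rfl⟩ := hreach z hz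
    intro c hc
    have h1 : m⁻¹ * c * m⁻¹⁻¹ ∈ C := (mem_normalizer_iff.1 (inv_mem hm) c).1 hc
    have h2 := hCx h1
    rw [mem_stabilizer_iff, inv_inv, mul_smul, mul_smul, inv_smul_eq_iff] at h2
    exact h2
  have key : ∀ w : G, StepReach G x y (w • x) → ∀ k ∈ K, w⁻¹ * k * w ∈ K := by
    intro w hw k hk
    refine (mem_iInf).2 ?_
    rintro ⟨z, hz⟩
    have h2 : k ∈ stabilizer G (w • z) := (mem_iInf.1 hk) ⟨_, hz.smul hw⟩
    rw [mem_stabilizer_iff] at h2
    show w⁻¹ * k * w ∈ stabilizer G z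
    rw [mem_stabilizer_iff, mul_smul, mul_smul, h2, inv_smul_smul]
  have hnorm : ∀ w : G, StepReach G x y (w • x) → w ∈ normalizer (K : Set G) := by
    intro w hw
    rw [mem_normalizer_iff]
    intro k
    constructor
    · intro hk
      have := key w⁻¹ hw.inv k hk
      rwa [inv_inv] at this
    · intro hk
      have := key w hw _ hk
      have e : w⁻¹ * (w * k * w⁻¹) * w = k := by group
      rwa [e] at this
  have hKx : K ≤ stabilizer G x := iInf_le_of_le ⟨x, StepReach.base⟩ le_rfl
  have hKne : K ≠ ⊥ := by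
    intro h
    rw [h, le_bot_iff] at hCK
    exact hC hCK
  have h1 : stabilizer G x ≤ normalizer (K : Set G) := by
    intro g hg
    apply hnorm
    rw [mem_stabilizer_iff.1 hg]
    exact StepReach.base
  have h2 : n ∈ normalizer (K : Set G) := by
    apply hnorm
    rw [hnx]
    have h3 : StepReach G x y ((1 : G) • y) :=
      StepReach.step 1 (by rw [one_smul]; exact StepReach.base)
    rwa [one_smul] at h3
  have h3 := P.norm x K hKx hKne h1 h2
  rw [mem_stabilizer_iff, hnx] at h3
  exact hxy h3.symm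

/-- characteristic subgroups are normalised by the normalizer -/
theorem normalizer_le_of_char {K : Type*} [Group K] (f : K →* G) (hf : Function.Injective f)
    {W : Subgroup K} (hW : W.Characteristic) :
    normalizer (f.range : Set G) ≤ normalizer (W.map f : Set G) := by
  refine le_normalizer_of_map_le fun g hg => ?_
  let e : K ≃* f.range := MonoidHom.ofInjective hf
  let a : MulAut f.range := f.range.normalizerMonoidHom ⟨g, hg⟩
  let φ : K ≃* K := (e.trans a).trans e.symm
  rintro _ ⟨_, ⟨w, hw, rfl⟩, rfl⟩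
  have h1 : φ w ∈ W := by
    have h2 : φ w ∈ W.map φ.toMonoidHom := ⟨w, hw, rfl⟩
    rwa [characteristic_iff_map_eq.1 hW φ] at h2
  refine ⟨φ w, h1, ?_⟩
  have h3 : e (φ w) = a (e w) := e.apply_symm_apply _
  have h4 : ((e (φ w) : f.range) : G) = ((a (e w) : f.range) : G) := congrArg _ h3
  exact h4

theorem exists_sylow_le_of_index {A : Type*} [Group A] [Finite A] {p : ℕ} [Fact p.Prime] {B : Subgroup A}
    (h : ¬ p ∣ B.index) : ∃ S : Sylow p A, (S : Subgroup A) ≤ B := by
  let T : Sylow p B := default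
  have hT : IsPGroup p ((T : Subgroup B).map B.subtype) := T.2.map B.subtype
  obtain ⟨S, hS⟩ := hT.exists_le_sylow
  refine ⟨S, ?_⟩
  have h1 : Nat.card S = Nat.card ((T : Subgroup B).map B.subtype) := by
    rw [card_map_of_injective B.subtype_injective, S.card_eq_multiplicity, T.card_eq_multiplicity]
    congr 1
    rw [← B.card_mul_index, Nat.factorization_mul Nat.card_pos.ne' index_ne_zero_of_finite,
      Finsupp.add_apply, Nat.factorization_eq_zero_of_not_dvd h, add_zero]
  have h2 : (T : Subgroup B).map B.subtype = (S : Subgroup A) := eq_of_le_of_card_ge hS h1.le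
  rw [← h2]
  exact map_subtype_le _

/-- (B'') a characteristic subgroup of a Sylow subgroup of `G_x` -/
theorem false_of_charW [Finite G] (P : PP G Ω) {ρ : Ω → Ω → Prop} {d : ℕ} (D : Dir G ρ d) {p : ℕ}
    [Fact p.Prime] (hpd : ¬ p ∣ d) (x : Ω)
    (hW : ∀ S : Sylow p (stabilizer G x), ∃ W : Subgroup S, W ≠ ⊥ ∧ W.Characteristic ∧
      (normalizer (W.map (S : Subgroup (stabilizer G x)).subtype : Set (stabilizer G x))).index.Coprime d) :
    False := by
  obtain ⟨y, hy⟩ := D.ex x
  have hxy : x ≠ y := by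
    rintro rfl
    exact D.not_le hy le_rfl
  have hidx : ((stabilizer G y).subgroupOf (stabilizer G x)).index = d := D.idx hy
  obtain ⟨S, hS⟩ := exists_sylow_le_of_index (p := p) (B := (stabilizer G y).subgroupOf (stabilizer G x))
    (by rw [hidx]; exact hpd)
  obtain ⟨W, hW1, hW2, hW3⟩ := hW S
  let f : S →* G := (stabilizer G x).subtype.comp (S : Subgroup (stabilizer G x)).subtype
  have hf : Function.Injective f := (stabilizer G x).subtype_injective.comp (subtype_injective _)
  have hCe : W.map f = (W.map (S : Subgroup (stabilizer G x)).subtype).map (stabilizer G x).subtype :=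
    (map_map _ _ _).symm
  have hRe : f.range = (S : Subgroup (stabilizer G x)).map (stabilizer G x).subtype := by
    rw [MonoidHom.range_comp, Subgroup.range_subtype]
  have hRx : f.range ≤ stabilizer G x := by rw [hRe]; exact map_subtype_le _
  have hRy : f.range ≤ stabilizer G y := by
    rw [hRe, map_le_iff_le_comap]
    exact hS
  -- an element normalising the Sylow subgroup and moving `x` to `y`
  obtain ⟨n, hn, hnx⟩ : ∃ n ∈ normalizer (f.range : Set G), n • x = y := by
    obtain ⟨g, rfl⟩ := P.trans x y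
    have hcard : Nat.card f.range = p ^ (Nat.card (stabilizer G (g • x))).factorization p := by
      rw [hRe, card_map_of_injective (stabilizer G x).subtype_injective, S.card_eq_multiplicity, stab_smul,
        card_map_of_injective (MulAut.conj g).injective]
    have hle : f.range.map (MulAut.conj g).toMonoidHom ≤ stabilizer G (g • x) := by
      rw [stab_smul]
      exact map_mono hRx
    have hcard2 : Nat.card (f.range.map (MulAut.conj g).toMonoidHom) =
        p ^ (Nat.card (stabilizer G (g • x))).factorization p := by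
      rw [card_map_of_injective (MulAut.conj g).injective, hcard]
    let S1 : Sylow p (stabilizer G (g • x)) := Sylow.ofCard (f.range.subgroupOf (stabilizer G (g • x)))
      (by rw [Nat.card_congr (subgroupOfEquivOfLe hRy).toEquiv, hcard])
    let S2 : Sylow p (stabilizer G (g • x)) :=
      Sylow.ofCard ((f.range.map (MulAut.conj g).toMonoidHom).subgroupOf (stabilizer G (g • x)))
      (by rw [Nat.card_congr (subgroupOfEquivOfLe hle).toEquiv, hcard2])
    obtain ⟨h, hh⟩ := MulAction.exists_smul_eq (stabilizer G (g • x)) S2 S1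
    have hh' : (S2 : Subgroup (stabilizer G (g • x))).map (MulAut.conj h).toMonoidHom =
        (S1 : Subgroup (stabilizer G (g • x))) := by
      rw [← hh]; rfl
    have hsub : ∀ r ∈ f.range, ((h : G) * g) * r * ((h : G) * g)⁻¹ ∈ f.range := by
      intro r hr
      have h1 : g * r * g⁻¹ ∈ f.range.map (MulAut.conj g).toMonoidHom := ⟨r, hr, rfl⟩
      have h2 : h * ⟨g * r * g⁻¹, hle h1⟩ * h⁻¹ ∈ (S1 : Subgroup (stabilizer G (g • x))) := by
        rw [← hh']
        exact ⟨⟨g * r * g⁻¹, hle h1⟩, h1, rfl⟩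
      have h3 : ((h * ⟨g * r * g⁻¹, hle h1⟩ * h⁻¹ : stabilizer G (g • x)) : G) ∈ f.range := h2
      have e : ((h * ⟨g * r * g⁻¹, hle h1⟩ * h⁻¹ : stabilizer G (g • x)) : G) =
          ((h : G) * g) * r * ((h : G) * g)⁻¹ := by
        simp only [coe_mul, coe_inv]
        group
      rwa [e] at h3
    have hmap : f.range.map (MulAut.conj ((h : G) * g)).toMonoidHom = f.range := by
      apply eq_of_le_of_card_ge
      · rintro _ ⟨r, hr, rfl⟩
        exact hsub r hr
      · rw [card_map_of_injective (MulAut.conj ((h : G) * g)).injective]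
    refine ⟨(h : G) * g, ?_, ?_⟩
    · rw [mem_normalizer_iff]
      intro r
      refine ⟨hsub r, fun hr => ?_⟩
      rw [← hmap] at hr
      obtain ⟨s, hs, hsr⟩ := hr
      have : s = r := (MulAut.conj ((h : G) * g)).injective hsr
      rwa [← this]
    · rw [mul_smul]
      exact h.2
  refine false_of_transport P hxy (C := W.map f) ?_ ?_ (normalizer_le_of_char f hf hW2 hn) hnx ?_
  · intro h
    exact hW1 ((map_eq_bot_iff_of_injective _ hf).1 h)
  · exact (map_le_range f W).trans hRx
  · intro g hg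
    obtain ⟨w, hw, b, hb, hwb⟩ := S0007.exists_mul_eq
      (normalizer (W.map (S : Subgroup (stabilizer G x)).subtype : Set (stabilizer G x)))
      ((stabilizer G y).subgroupOf (stabilizer G x)) (by rw [hidx]; exact hW3) ⟨g, hg⟩
    refine ⟨w, ?_, w.2, ?_⟩
    · rw [hCe, mem_normalizer_iff]
      intro c
      constructor
      · rintro ⟨c', hc', rfl⟩
        exact ⟨w * c' * w⁻¹, (mem_normalizer_iff.1 hw c').1 hc', rfl⟩
      · rintro ⟨c', hc', hcc⟩
        refine ⟨w⁻¹ * c' * w⁻¹⁻¹, (mem_normalizer_iff.1 (inv_mem hw) c').1 hc', ?_⟩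
        have hcc' : (c' : G) = (w : G) * c * (w : G)⁻¹ := hcc
        simp only [coe_subtype, coe_mul, coe_inv, hcc']
        group
    · have h1 : g = (w : G) * (b : G) := congrArg Subtype.val hwb
      have h2 : (b : G) • y = y := hb
      rw [h1, mul_smul, h2]

/-- for two primes there is a direction of valency prime to both -/
theorem exists_dir_prime {d₁ d₂ d₃ : ℕ} (h12 : d₁.Coprime d₂) (h13 : d₁.Coprime d₃) (h23 : d₂.Coprime d₃)
    {p q : ℕ} (hp : p.Prime) (hq : q.Prime) :
    (¬ p ∣ d₁ ∧ ¬ q ∣ d₁) ∨ (¬ p ∣ d₂ ∧ ¬ q ∣ d₂) ∨ (¬ p ∣ d₃ ∧ ¬ q ∣ d₃) := by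
  have key : ∀ {a b s : ℕ}, a.Coprime b → s.Prime → s ∣ a → ¬ s ∣ b := fun hab hs h1 h2 =>
    hs.one_lt.ne' (Nat.eq_one_of_dvd_coprimes hab h1 h2)
  by_cases hp1 : p ∣ d₁
  · by_cases hq2 : q ∣ d₂
    · exact Or.inr (Or.inr ⟨key h13 hp hp1, key h23 hq hq2⟩)
    · exact Or.inr (Or.inl ⟨key h12 hp hp1, hq2⟩)
  · by_cases hq1 : q ∣ d₁
    · by_cases hp2 : p ∣ d₂
      · exact Or.inr (Or.inr ⟨key h23 hp hp2, key h13 hq hq1⟩)
      · exact Or.inr (Or.inl ⟨hp2, key h12 hq hq1⟩)
    · exact Or.inl ⟨hp1, hq1⟩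

end

/-- Soluble `G_x` with `C_{G_x}(O_r(G_x)) ≤ O_r(G_x)`: impossible, given the characteristic subgroups `W(R)`. -/
theorem false_of_sol_LOC_of {G : Type u} {Ω : Type v} [Group G] [Finite G] [MulAction G Ω] (P : PP G Ω)
    {r₁ r₂ r₃ : Ω → Ω → Prop} {d₁ d₂ d₃ : ℕ} (D₁ : Dir G r₁ d₁) (D₂ : Dir G r₂ d₂) (D₃ : Dir G r₃ d₃)
    (h12 : d₁.Coprime d₂) (h13 : d₁.Coprime d₃) (h23 : d₂.Coprime d₃) {r : ℕ} [Fact r.Prime]
    (hch : ∀ (R : Type u) [Group R] [Finite R] [Nontrivial R], IsPGroup r R → ∃ W : Subgroup R, W ≠ ⊥ ∧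
      W.Characteristic ∧ ∀ (A : Type u) [Group A] [Finite A] [Group.IsSolvable A] (τ : R →* A),
        Function.Injective τ → (∃ P : Sylow r A, (P : Subgroup A) = τ.range) →
        centralizer (Cfsg.pCore r A : Set A) ≤ Cfsg.pCore r A →
        ∀ s : ℕ, s.Prime → s ∣ (normalizer (W.map τ : Set A)).index → (r = 2 ∧ s = 3) ∨ (r = 3 ∧ s = 2))
    (x : Ω) [Group.IsSolvable (stabilizer G x)]
    (hC : centralizer (Cfsg.pCore r (stabilizer G x) : Set (stabilizer G x)) ≤ Cfsg.pCore r (stabilizer G x)) :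
    False := by
  have hnt : Nontrivial (stabilizer G x) := by
    by_contra hcon
    rw [not_nontrivial_iff_subsingleton] at hcon
    obtain ⟨y, hy⟩ := D₁.ex x
    apply D₁.not_le hy
    intro g hg
    have : (⟨g, hg⟩ : stabilizer G x) = 1 := Subsingleton.elim _ _
    have h1 : g = 1 := congrArg Subtype.val this
    rw [h1]
    exact one_mem _
  have hpc : Cfsg.pCore r (stabilizer G x) ≠ ⊥ := by
    intro h
    rw [h] at hC
    apply (bot_ne_top : (⊥ : Subgroup (stabilizer G x)) ≠ ⊤)
    refine top_le_iff.1 (le_trans ?_ hC)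
    intro g _
    rw [mem_centralizer_iff]
    intro k hk
    rw [mem_bot.1 hk, one_mul, mul_one]
  have hcore : ∀ S : Sylow r (stabilizer G x), Cfsg.pCore r (stabilizer G x) ≤ S := by
    intro S
    refine sSup_le fun N hN => ?_
    obtain ⟨hN1, hN2⟩ := hN
    obtain ⟨T, hT⟩ := hN2.exists_le_sylow
    obtain ⟨g, rfl⟩ := MulAction.exists_smul_eq (stabilizer G x) T S
    intro n hn
    have h1 : g⁻¹ * n * g⁻¹⁻¹ ∈ N := hN1.conj_mem n hn g⁻¹
    refine ⟨g⁻¹ * n * g⁻¹⁻¹, hT h1, ?_⟩
    show g * (g⁻¹ * n * g⁻¹⁻¹) * g⁻¹ = n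
    group
  have key : ∀ {ρ : Ω → Ω → Prop} {d : ℕ}, Dir G ρ d → ¬ r ∣ d → (r = 2 → ¬ 3 ∣ d) → (r = 3 → ¬ 2 ∣ d) →
      False := by
    intro ρ d D hr hr2 hr3
    refine false_of_charW P D hr x fun S => ?_
    have hSnt : Nontrivial S := by
      rw [Subgroup.nontrivial_iff_ne_bot]
      intro h
      apply hpc
      have := hcore S
      rw [h, le_bot_iff] at this
      exact this
    obtain ⟨W, hW1, hW2, hW3⟩ := hch S S.2
    refine ⟨W, hW1, hW2, ?_⟩
    have h1 := hW3 (stabilizer G x) (S : Subgroup (stabilizer G x)).subtype (subtype_injective _)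
      ⟨S, (Subgroup.range_subtype _).symm⟩ hC
    refine Nat.Coprime.symm (Nat.coprime_of_dvd ?_)
    intro s hs hsd hsi
    rcases h1 s hs hsi with ⟨h2, h3⟩ | ⟨h2, h3⟩
    · rw [h3] at hsd
      exact hr2 h2 hsd
    · rw [h3] at hsd
      exact hr3 h2 hsd
  have hrp : r.Prime := Fact.out
  by_cases hr2 : r = 2
  · rcases exists_dir_prime h12 h13 h23 hrp Nat.prime_three with h | h | h
    · exact key D₁ h.1 (fun _ => h.2) (fun h3 => by omega)
    · exact key D₂ h.1 (fun _ => h.2) (fun h3 => by omega)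
    · exact key D₃ h.1 (fun _ => h.2) (fun h3 => by omega)
  · rcases exists_dir_prime h12 h13 h23 hrp Nat.prime_two with h | h | h
    · exact key D₁ h.1 (fun h2 => absurd h2 hr2) (fun _ => h.2)
    · exact key D₂ h.1 (fun h2 => absurd h2 hr2) (fun _ => h.2)
    · exact key D₃ h.1 (fun h2 => absurd h2 hr2) (fun _ => h.2)

/-- **Soluble LOC**: soluble `G_x` with `C_{G_x}(O_r(G_x)) ≤ O_r(G_x)` for a prime `r` is impossible. -/
theorem false_of_sol_LOC {G : Type u} {Ω : Type v} [Group G] [Finite G] [MulAction G Ω] (P : PP G Ω)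
    {r₁ r₂ r₃ : Ω → Ω → Prop} {d₁ d₂ d₃ : ℕ} (D₁ : Dir G r₁ d₁) (D₂ : Dir G r₂ d₂) (D₃ : Dir G r₃ d₃)
    (h12 : d₁.Coprime d₂) (h13 : d₁.Coprime d₃) (h23 : d₂.Coprime d₃) {r : ℕ} (hr : r.Prime)
    (x : Ω) (hsol : Group.IsSolvable (stabilizer G x))
    (hC : centralizer (Cfsg.pCore r (stabilizer G x) : Set (stabilizer G x)) ≤ Cfsg.pCore r (stabilizer G x)) :
    False :=
  haveI : Fact r.Prime := ⟨hr⟩
  false_of_sol_LOC_of P D₁ D₂ D₃ h12 h13 h23 (fun _ _ _ _ hR => exists_charW hR) x hC

end Cfsg.Agent.R2.T3544
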