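import Cfsg.Agent.R2.T3544.NLend
import Cfsg.Agent.R2.T3544.UCore
import Cfsg.Agent.R2.T3544.UBal

/-!
# S3544: the statements used in `NLend`
-/

set_option autoImplicit false

namespace Cfsg.Agent.R2.T3544

open Subgroup Cfsg

variable {G : Type*} [Group G] [Finite G] {p : ℕ} [Fact p.Prime]

theorem ucBasic : UCBasic G p where
  perfect h := h.perfect
  not_comm h := h.not_comm
  le_or_comm h hN := h.le_or_comm hN
  mono_sub h h1 h2 := h.mono_sub h1 h2

theorem commNormStmt : CommNormStmt G p := fun h hD hD' hle => UC.comm_of_norm h hD hD' hle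

theorem coreCommStmt : CoreCommStmt G p := fun hD hc hR hRp hi hRD h => le_core_of_comm hD hc hR hRp hi hRD h

theorem balStmt : BalStmt G p := fun hS hX hXp hi hK => UC.balance hS hX hXp hi hK

end Cfsg.Agent.R2.T3544
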