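import Cfsg.Agent.R2.T3544.LocSol
import Cfsg.Agent.R2.T3544.NLMu
import Cfsg.Agent.Lib.Cores
import Cfsg.Agent.S0044

/-!
# S3544 for soluble point stabilizers
-/

set_option autoImplicit false

namespace Cfsg.Agent.R2.T3544

open Subgroup MulAction Cfsg

universe u v

/-- a nontrivial finite soluble group is of characteristic `r`, or two of its `p`-cores are nontrivial -/
theorem solvable_cases {A : Type*} [Group A] [Finite A] [Nontrivial A] (hA : Group.IsSolvable A) :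
    (∃ r : ℕ, r.Prime ∧ centralizer (pCore r A : Set A) ≤ pCore r A) ∨
      ∃ p q : ℕ, p.Prime ∧ q.Prime ∧ p ≠ q ∧ pCore p A ≠ ⊥ ∧ pCore q A ≠ ⊥ := by
  by_cases h : ∃ p q : ℕ, p.Prime ∧ q.Prime ∧ p ≠ q ∧ pCore p A ≠ ⊥ ∧ pCore q A ≠ ⊥
  · exact Or.inr h
  left
  have hF := Cfsg.Agent.S0044.result (G := A)
  have h0 : ∃ p : ℕ, p.Prime ∧ pCore p A ≠ ⊥ := by
    by_contra hcon
    push Not at hcon
    have h1 : fittingSubgroup A = ⊥ := by
      rw [Lib.Cores.fittingSubgroup_eq_iSup_pCore, iSup_eq_bot]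
      exact fun p => hcon p p.2
    rw [h1] at hF
    apply (bot_ne_top : (⊥ : Subgroup A) ≠ ⊤)
    refine top_le_iff.1 (le_trans ?_ hF)
    intro g _
    rw [mem_centralizer_iff]
    intro k hk
    rw [mem_bot.1 hk, one_mul, mul_one]
  obtain ⟨p, hp, hpne⟩ := h0
  refine ⟨p, hp, ?_⟩
  have h1 : fittingSubgroup A = pCore p A := by
    rw [Lib.Cores.fittingSubgroup_eq_iSup_pCore]
    apply le_antisymm
    · refine iSup_le fun q => ?_
      by_cases hq : (q : ℕ) = p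
      · rw [hq]
      · have h2 : pCore (q : ℕ) A = ⊥ := by
          by_contra h3
          exact h ⟨p, q, hp, q.2, fun e => hq e.symm, hpne, h3⟩
        rw [h2]
        exact bot_le
    · exact le_iSup (fun q : Nat.Primes => pCore (q : ℕ) A) ⟨p, hp⟩
  rwa [h1] at hF

theorem Dir.nontrivial_stab {G : Type*} [Group G] {Ω : Type*} [MulAction G Ω] {ρ : Ω → Ω → Prop} {d : ℕ}
    (D : Dir G ρ d) (x : Ω) : Nontrivial (stabilizer G x) := by
  by_contra hcon
  rw [not_nontrivial_iff_subsingleton] at hcon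
  obtain ⟨y, hy⟩ := D.ex x
  apply D.not_le hy
  intro g hg
  have : (⟨g, hg⟩ : stabilizer G x) = 1 := Subsingleton.elim _ _
  have h1 : g = 1 := congrArg Subtype.val this
  rw [h1]
  exact one_mem _

/-- for a prime there are two directions of valency prime to it -/
theorem exists_dir_prime' {d₁ d₂ d₃ : ℕ} (h12 : d₁.Coprime d₂) (h13 : d₁.Coprime d₃) (h23 : d₂.Coprime d₃)
    {p : ℕ} (hp : p.Prime) :
    (¬ p ∣ d₁ ∧ ¬ p ∣ d₂) ∨ (¬ p ∣ d₁ ∧ ¬ p ∣ d₃) ∨ (¬ p ∣ d₂ ∧ ¬ p ∣ d₃) := by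
  have key : ∀ {a b : ℕ}, a.Coprime b → p ∣ a → ¬ p ∣ b := fun hab h1 h2 =>
    hp.one_lt.ne' (Nat.eq_one_of_dvd_coprimes hab h1 h2)
  by_cases hp1 : p ∣ d₁
  · exact Or.inr (Or.inr ⟨key h12 hp1, key h13 hp1⟩)
  · by_cases hp2 : p ∣ d₂
    · exact Or.inr (Or.inl ⟨hp1, key h23 hp2⟩)
    · exact Or.inl ⟨hp1, hp2⟩

/-- soluble point stabilizers, given the NL case -/
theorem false_of_solvable_of {G : Type u} {Ω : Type v} [Group G] [Finite G] [MulAction G Ω] [Nonempty Ω]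
    (P : PP G Ω)
    {r₁ r₂ r₃ : Ω → Ω → Prop} {d₁ d₂ d₃ : ℕ} (D₁ : Dir G r₁ d₁) (D₂ : Dir G r₂ d₂) (D₃ : Dir G r₃ d₃)
    (h12 : d₁.Coprime d₂) (h13 : d₁.Coprime d₃) (h23 : d₂.Coprime d₃)
    (hsol : ∀ x : Ω, Group.IsSolvable (stabilizer G x))
    (hNL : ∀ (x : Ω) (p q : ℕ), p.Prime → q.Prime → p ≠ q → pCore p (stabilizer G x) ≠ ⊥ →
      pCore q (stabilizer G x) ≠ ⊥ → False) : False := by
  obtain ⟨x⟩ := (inferInstance : Nonempty Ω)
  have := D₁.nontrivial_stab x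
  rcases solvable_cases (hsol x) with ⟨r, hr, hC⟩ | ⟨p, q, hp, hq, hpq, h1, h2⟩
  · exact false_of_sol_LOC P D₁ D₂ D₃ h12 h13 h23 hr x (hsol x) hC
  · exact hNL x p q hp hq hpq h1 h2

/-- **S3544 for soluble point stabilizers** -/
theorem false_of_solvable {G : Type u} {Ω : Type v} [Group G] [Finite G] [MulAction G Ω] [Nonempty Ω]
    (P : PP G Ω)
    {r₁ r₂ r₃ : Ω → Ω → Prop} {d₁ d₂ d₃ : ℕ} (D₁ : Dir G r₁ d₁) (D₂ : Dir G r₂ d₂) (D₃ : Dir G r₃ d₃)
    (h12 : d₁.Coprime d₂) (h13 : d₁.Coprime d₃) (h23 : d₂.Coprime d₃)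
    (hsol : ∀ x : Ω, Group.IsSolvable (stabilizer G x)) : False := by
  refine false_of_solvable_of P D₁ D₂ D₃ h12 h13 h23 hsol ?_
  intro x p q hp hq hpq h1 h2
  have : Fact p.Prime := ⟨hp⟩
  have hX : ∀ y : Ω, pCore p (stabilizer G y) ≠ ⊥ := by
    intro y h
    apply (NLMu.op_fnc (Ω := Ω) p).ne_bot P (x := x) ?_ y
    · show (pCore p (stabilizer G y)).map (stabilizer G y).subtype = ⊥
      rw [h, Subgroup.map_bot]
    · intro h3
      exact h1 ((map_eq_bot_iff_of_injective _ (stabilizer G x).subtype_injective).1 h3)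
  have hE : ∀ y : Ω, pPrimeCore p (stabilizer G y) ≠ ⊥ := by
    intro y h
    apply (NLMu.opp_fnc (Ω := Ω) p).ne_bot P (x := x) ?_ y
    · show (pPrimeCore p (stabilizer G y)).map (stabilizer G y).subtype = ⊥
      rw [h, Subgroup.map_bot]
    · intro h3
      have h4 := (map_eq_bot_iff_of_injective _ (stabilizer G x).subtype_injective).1 h3
      apply h2
      rw [eq_bot_iff, ← h4]
      have : Fact q.Prime := ⟨hq⟩
      refine Lib.Cores.le_pPrimeCore (Lib.Cores.pCore_normal q) ?_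
      obtain ⟨k, hk⟩ := (IsPGroup.iff_card).1 (Lib.Cores.pCore_isPGroup (G := stabilizer G x) q)
      rw [hk]
      exact Nat.Coprime.pow_left _ ((Nat.coprime_primes hq hp).2 (Ne.symm hpq))
  rcases exists_dir_prime' h12 h13 h23 hp with h' | h' | h'
  · exact NLMu.false_of_solvable P D₁ D₂ h12 h'.1 h'.2 hsol hX hE x
  · exact NLMu.false_of_solvable P D₁ D₃ h13 h'.1 h'.2 hsol hX hE x
  · exact NLMu.false_of_solvable P D₂ D₃ h23 h'.1 h'.2 hsol hX hE x

end Cfsg.Agent.R2.T3544
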