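import Cfsg.Agent.R2.T3544.NLcFin
import Cfsg.Agent.R2.T3544.Cons
import Cfsg.Agent.R2.T3544.Sol

/-!
# S3544: `O_u(G_x) ≠ 1`, `O_{u'}(G_x) ≠ 1`, `G_x` `u`-constrained (helper1's 4177)
-/

set_option autoImplicit false

namespace Cfsg.Agent.R2.T3544

open Subgroup MulAction Cfsg
open Cfsg.Agent.Lib

universe u v

/-- `u`-constrained groups -/
def UCon (p : ℕ) (H : Type*) [Group H] : Prop :=
  centralizer (pCore p (H ⧸ pPrimeCore p H) : Set (H ⧸ pPrimeCore p H)) ≤ pCore p (H ⧸ pPrimeCore p H)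

theorem UCon.of_equiv {p : ℕ} {H K : Type*} [Group H] [Group K] (e : H ≃* K) (h : UCon p H) : UCon p K := by
  let f : H ⧸ pPrimeCore p H ≃* K ⧸ pPrimeCore p K :=
    QuotientGroup.congr (pPrimeCore p H) (pPrimeCore p K) e (Cores.map_equiv_pPrimeCore e p)
  have h1 := Cores.map_equiv_pCore f p
  intro k hk
  rw [mem_centralizer_iff] at hk
  rw [← h1]
  refine ⟨f.symm k, h ?_, f.apply_symm_apply k⟩
  rw [mem_centralizer_iff]
  intro a ha
  apply f.injective
  rw [map_mul, map_mul, f.apply_symm_apply]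
  apply hk
  rw [← h1]
  exact ⟨a, ha, rfl⟩

/-- soluble groups are `u`-constrained -/
theorem UCon.of_solvable {p : ℕ} [Fact p.Prime] {H : Type*} [Group H] [Finite H] [Group.IsSolvable H] : UCon p H := by
  have h : Group.IsSolvable (H ⧸ pPrimeCore p H) :=
    Group.isSolvable_of_surjective (QuotientGroup.mk'_surjective (pPrimeCore p H))
  exact HallHigman.centralizer_pCore_le_of_solvable p (Cores.pPrimeCore_quotient_pPrimeCore p)

/-- the functor `O_p(G_x)` -/
theorem pCore_fun (G : Type u) [Group G] (Ω : Type v) [MulAction G Ω] (p : ℕ) :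
    Fun G (fun x : Ω => (pCore p (stabilizer G x)).map (stabilizer G x).subtype) :=
  Fun.of_iso (fun K _ => pCore p K) (fun _ _ _ _ e => (Cores.map_equiv_pCore e p).le)

/-- the functor `O_{p'}(G_x)` -/
theorem pPrimeCore_fun (G : Type u) [Group G] (Ω : Type v) [MulAction G Ω] (p : ℕ) :
    Fun G (fun x : Ω => (pPrimeCore p (stabilizer G x)).map (stabilizer G x).subtype) :=
  Fun.of_iso (fun K _ => pPrimeCore p K) (fun _ _ _ _ e => (Cores.map_equiv_pPrimeCore e p).le)

/-- all point stabilizers are isomorphic -/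
theorem PP.equiv {G : Type u} [Group G] {Ω : Type v} [MulAction G Ω] (P : PP G Ω) (x y : Ω) :
    Nonempty (stabilizer G x ≃* stabilizer G y) := by
  obtain ⟨g, rfl⟩ := P.trans x y
  exact ⟨((stabilizer G x).equivMapOfInjective (MulAut.conj g).toMonoidHom (MulAut.conj g).injective).trans
    (MulEquiv.subgroupCongr (stab_smul (G := G) g x).symm)⟩

/-- closure of `O(x) ∩ G_y` for `u`-constrained stabilizers -/
theorem closure_of_UCon {G : Type u} [Group G] [Finite G] {Ω : Type v} [MulAction G Ω] {p : ℕ} [Fact p.Prime]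
    {r : Ω → Ω → Prop} {d : ℕ} (D : Dir G r d) (hd : ¬ p ∣ d) {x y : Ω} (hC : UCon p (stabilizer G y))
    (hxy : r x y) :
    (pPrimeCore p (stabilizer G x)).map (stabilizer G x).subtype ⊓ stabilizer G y ≤
      (pPrimeCore p (stabilizer G y)).map (stabilizer G y).subtype := by
  obtain ⟨S⟩ : Nonempty (Sylow p (stabilizer G x ⊓ stabilizer G y : Subgroup G)) := inferInstance
  have hSle : (S : Subgroup _).map (stabilizer G x ⊓ stabilizer G y).subtype ≤
      stabilizer G x ⊓ stabilizer G y := map_subtype_le _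
  have hSp : IsPGroup p ((S : Subgroup _).map (stabilizer G x ⊓ stabilizer G y).subtype) := S.isPGroup'.map _
  have hi1 : ¬ p ∣ ((S : Subgroup _).map (stabilizer G x ⊓ stabilizer G y).subtype).relIndex
      (stabilizer G x ⊓ stabilizer G y) := by
    rw [relIndex, subgroupOf, comap_map_eq_self_of_injective (subtype_injective _)]
    exact S.not_dvd_index
  have hi2 : (stabilizer G x ⊓ stabilizer G y).relIndex (stabilizer G y) = d := by
    rw [inf_relIndex_right]
    exact D.idx (D.symm hxy)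
  have hi : ¬ p ∣ ((S : Subgroup _).map (stabilizer G x ⊓ stabilizer G y).subtype).relIndex (stabilizer G y) := by
    rw [← relIndex_mul_relIndex _ _ _ hSle inf_le_right, hi2]
    intro h
    rcases (Nat.Prime.dvd_mul Fact.out).1 h with h | h
    · exact hi1 h
    · exact hd h
  refine le_core_map_of_constr (u := p) hC inf_le_right (hSle.trans inf_le_right) hSp hi ?_ ?_
  · exact Nat.Coprime.coprime_dvd_left (card_dvd_of_le inf_le_left) (LocalCore.card_map_pPrimeCore_coprime p _)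
  · refine Resid.norm_inf ?_ ?_
    · exact hSle.trans (inf_le_left.trans ((pPrimeCore_fun G Ω p).norm x))
    · exact hSle.trans (inf_le_right.trans le_normalizer)

theorem false_of_constr_two {G : Type u} [Group G] [Finite G] {Ω : Type v} [MulAction G Ω] (P : PP G Ω)
    {ra rb : Ω → Ω → Prop} {da db : ℕ} (A : Dir G ra da) (B : Dir G rb db) (hc : da.Coprime db)
    {p : ℕ} (hp : p.Prime) (hpa : ¬ p ∣ da) (hpb : ¬ p ∣ db) (x : Ω)
    (hX : pCore p (stabilizer G x) ≠ ⊥) (hO : pPrimeCore p (stabilizer G x) ≠ ⊥)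
    (hC : UCon p (stabilizer G x)) : False := by
  have : Fact p.Prime := ⟨hp⟩
  have : Nonempty Ω := ⟨x⟩
  have hpc : ∀ {m : ℕ}, ¬ p ∣ m → ∀ (K : Subgroup G), IsPGroup p K → (Nat.card K).Coprime m := by
    intro m hm K hK
    obtain ⟨k, hk⟩ := IsPGroup.iff_card.1 hK
    rw [hk]
    exact Nat.Coprime.pow_left _ ((Nat.Prime.coprime_iff_not_dvd hp).2 hm)
  have hXp : ∀ y : Ω, IsPGroup p ((pCore p (stabilizer G y)).map (stabilizer G y).subtype) :=
    fun y => LocalCore.isPGroup_map_pCore p _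
  have hC' : ∀ y : Ω, UCon p (stabilizer G y) := fun y => by
    obtain ⟨e⟩ := P.equiv x y
    exact hC.of_equiv e
  refine false_of_coprime_functors P A B hc (pCore_fun G Ω p) (pPrimeCore_fun G Ω p) ?_ ?_ ?_ ?_ ?_ ?_ ?_ ?_
  · refine (pCore_fun G Ω p).ne_bot P (x := x) fun h => hX ?_
    exact (map_eq_bot_iff_of_injective _ (stabilizer G x).subtype_injective).1 h
  · refine (pPrimeCore_fun G Ω p).ne_bot P (x := x) fun h => hO ?_
    exact (map_eq_bot_iff_of_injective _ (stabilizer G x).subtype_injective).1 h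
  · intro y z
    obtain ⟨k, hk⟩ := IsPGroup.iff_card.1 (hXp y)
    rw [hk]
    exact Nat.Coprime.pow_left _ (LocalCore.card_map_pPrimeCore_coprime p (stabilizer G z)).symm
  · exact fun y => hpc hpa _ (hXp y)
  · exact fun y => hpc hpb _ (hXp y)
  · exact fun y => CopLem.solv_of_isPGroup (hXp y)
  · exact fun {y z} h => closure_of_UCon A hpa (hC' z) h
  · exact fun {y z} h => closure_of_UCon B hpb (hC' z) h

/-- **`G_x` `p`-constrained, `O_p(G_x) ≠ 1`, `O_{p'}(G_x) ≠ 1`: impossible** (arbitrary `O_{p'}(G_x)`) -/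
theorem false_of_constr {G : Type u} [Group G] [Finite G] {Ω : Type v} [MulAction G Ω] (P : PP G Ω)
    {r₁ r₂ r₃ : Ω → Ω → Prop} {d₁ d₂ d₃ : ℕ} (D₁ : Dir G r₁ d₁) (D₂ : Dir G r₂ d₂) (D₃ : Dir G r₃ d₃)
    (h12 : d₁.Coprime d₂) (h13 : d₁.Coprime d₃) (h23 : d₂.Coprime d₃)
    {p : ℕ} (hp : p.Prime) (x : Ω)
    (hX : pCore p (stabilizer G x) ≠ ⊥) (hO : pPrimeCore p (stabilizer G x) ≠ ⊥)
    (hC : UCon p (stabilizer G x)) : False := by
  rcases exists_dir_prime' h12 h13 h23 hp with h' | h' | h'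
  · exact false_of_constr_two P D₁ D₂ h12 hp h'.1 h'.2 x hX hO hC
  · exact false_of_constr_two P D₁ D₃ h13 hp h'.1 h'.2 x hX hO hC
  · exact false_of_constr_two P D₂ D₃ h23 hp h'.1 h'.2 x hX hO hC

end Cfsg.Agent.R2.T3544
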