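import Cfsg.Agent.R2.T3544.Edge
import Cfsg.Agent.R2.T3544.OffC3

/-!
# S3544, LOC: the order argument of the no-sharing theorem
-/

set_option autoImplicit false

namespace Cfsg.Agent.R2.T3544

open Subgroup MulAction Cfsg
open scoped commutatorElement

variable {G : Type*} [Group G] {Ω : Type*} [MulAction G Ω] {Q : Ω → Subgroup G} {r : ℕ}
  {ra rb : Ω → Ω → Prop} {da db : ℕ}

/-- `X ⊓ G_x ≤ Y`, `Q x ≤ Y`, `O_xy ⊓ X ≤ Q y`: the `r`-part of `X` is smaller than that of `Y` -/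
theorem RCore.fact_lt_of_inf_le [Finite G] [Fact r.Prime] (h : RCore G r Q) (P : PP G Ω) (A : Dir G ra da)
    (hr : ¬ r ∣ da) {x y : Ω} (hxy : ra x y) (hne : Q x ≠ ⊥) {X Y : Subgroup G} (hX : X ≤ stabilizer G y)
    (hXn : stabilizer G y ≤ normalizer (X : Set G)) (hY : Y ≤ stabilizer G x)
    (hYn : stabilizer G x ≤ normalizer (Y : Set G)) (hXY : X ⊓ stabilizer G x ≤ Y) (hQY : Q x ≤ Y)
    (hEX : EQ G r x y ⊓ X ≤ Q y) : (Nat.card X).factorization r < (Nat.card Y).factorization r := by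
  obtain ⟨R, hR⟩ := exists_sylIn r (stabilizer G x ⊓ stabilizer G y)
  have hRx := hR.of_inf A hr hxy
  have hRy : SylIn r (stabilizer G y) R := by
    rw [inf_comm] at hR
    exact hR.of_inf A hr (A.symm hxy)
  have h1 : SylIn r X (X ⊓ R) := hRy.inf_normal hX hXn
  have h2 : SylIn r Y (Y ⊓ R) := hRx.inf_normal hY hYn
  have h3 : X ⊓ R ≤ Y ⊓ R := le_inf ((inf_le_inf_left X hRx.1).trans hXY) inf_le_right
  by_contra hcon
  rw [not_lt] at hcon
  have h4 : Nat.card (Y ⊓ R : Subgroup G) ≤ Nat.card (X ⊓ R : Subgroup G) := by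
    rw [h1.2, h2.2]
    exact Nat.pow_le_pow_right (Fact.out : r.Prime).pos hcon
  have h5 : X ⊓ R = Y ⊓ R := eq_of_le_of_card_ge h3 h4
  have h6 : Q x ≤ R := h.le_sylIn hRx
  have h7 : Q x ≤ X := (le_inf hQY h6).trans (h5 ▸ inf_le_left)
  have h8 : Q x ≤ Q y := (le_inf (h.le_EQ A hr hxy) h7).trans hEX
  exact h.fn.not_le P A hxy hne h8

end Cfsg.Agent.R2.T3544
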