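import Cfsg.Agent.R2.T3544.NoShare
import Cfsg.Agent.R2.T3544.NoShare3

/-!
# S3544, LOC: no sharing (helper13's theorem (nu'))

`X_a(x) = C_{G_x}(L_a(x)/Q_x)`. It is impossible that `G_x = X_b(x) G_xy` for all `y ~_a x` and
`G_x = X_a(x) G_xz` for all `z ~_b x`.
-/

set_option autoImplicit false

namespace Cfsg.Agent.R2.T3544

open Subgroup MulAction Cfsg

variable {G : Type*} [Group G] {Ω : Type*} [MulAction G Ω] {Q : Ω → Subgroup G} {r : ℕ}
  {ra rb : Ω → Ω → Prop} {da db : ℕ}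

/-- one half of the order argument -/
theorem RCore.XQ_fact_lt [Finite G] [Fact r.Prime] (h : RCore G r Q) (P : PP G Ω) (A : Dir G ra da)
    (B : Dir G rb db) (hc : da.Coprime db) (hra : ¬ r ∣ da) {x y : Ω} (hxy : ra x y) (hQ : Q x ≠ ⊥)
    (hnu : stabilizer G x ≤ XQ G r Q rb x ⊔ (stabilizer G x ⊓ stabilizer G y)) :
    (Nat.card (XQ G r Q ra x)).factorization r < (Nat.card (XQ G r Q rb x)).factorization r := by
  rw [(h.XQ_fun A).card_eq P x y]
  refine h.fact_lt_of_inf_le P A hra hxy hQ (XQ_le y) (h.XQ_norm A y) (XQ_le x) (h.XQ_norm B x)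
    (h.XQ_inf_le P A B hc hra hxy hQ hnu) ?_ (h.EQ_inf_XQ_le A hra hxy)
  exact le_XQ (h.fn.le x) ((comm_le_inf ((h.fn.le x).trans ((LQ_fun B).norm x))
    ((LQ_le_stab r rb x).trans (h.fn.norm x))).trans inf_le_left)

/-- **no-sharing theorem** -/
theorem false_of_nu [Finite G] [Fact r.Prime] (P : PP G Ω) (h : RCore G r Q) (A : Dir G ra da)
    (B : Dir G rb db) (hc : da.Coprime db) (hra : ¬ r ∣ da) (hrb : ¬ r ∣ db) {x y z : Ω} (hxy : ra x y)
    (hxz : rb x z) (hQ : Q x ≠ ⊥)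
    (hnu : stabilizer G x ≤ XQ G r Q rb x ⊔ (stabilizer G x ⊓ stabilizer G y))
    (hnu' : stabilizer G x ≤ XQ G r Q ra x ⊔ (stabilizer G x ⊓ stabilizer G z)) : False :=
  (h.XQ_fact_lt P A B hc hra hxy hQ hnu).not_gt (h.XQ_fact_lt P B A hc.symm hrb hxz hQ hnu')

/-- no sharing, with the join of the two centralizers transitive on both neighbourhoods: (nu) of helper24 -/
theorem false_of_nu_sup [Finite G] [Fact r.Prime] (P : PP G Ω) (h : RCore G r Q) (A : Dir G ra da)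
    (B : Dir G rb db) (hc : da.Coprime db) (hra : ¬ r ∣ da) (hrb : ¬ r ∣ db) (x : Ω) (hQ : Q x ≠ ⊥)
    (hnu : ∀ y, ra x y → stabilizer G x ≤ XQ G r Q rb x ⊔ (stabilizer G x ⊓ stabilizer G y))
    (hnu' : ∀ z, rb x z → stabilizer G x ≤ XQ G r Q ra x ⊔ (stabilizer G x ⊓ stabilizer G z)) : False := by
  obtain ⟨y, hy⟩ := A.ex x
  obtain ⟨z, hz⟩ := B.ex x
  exact false_of_nu P h A B hc hra hrb hy hz hQ (hnu y hy) (hnu' z hz)

end Cfsg.Agent.R2.T3544
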