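import Cfsg.Agent.R2.T3544.OffFin1
import Cfsg.Agent.R2.T3544.OffMi
import Cfsg.Agent.R2.T3544.OffB1
import Cfsg.Agent.R2.T3544.OffB2
import Cfsg.Agent.R2.T3544.OffC3

/-!
# S3544, LOC: helper24's theorem: LOC is impossible if `J(R)` centralises `Ω₁ Z(J(Q_x))`
-/

set_option autoImplicit false

namespace Cfsg.Agent.R2.T3544

open Subgroup MulAction Cfsg
open scoped commutatorElement

variable {G : Type*} [Group G] {Ω : Type*} [MulAction G Ω] {Q V : Ω → Subgroup G} {r : ℕ}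

/-- the statement of OffA -/
def OffAStmt (G : Type*) [Group G] (r : ℕ) : Prop :=
  ∀ {S V X₁ X₂ B A D : Subgroup G}, V ≤ S → S ≤ normalizer (V : Set G) → IsEA r V → V ≠ ⊥ →
    (∀ K ≤ V, S ≤ normalizer (K : Set G) → K = ⊥ ∨ K = V) → X₁ ≤ S → X₂ ≤ S → S ≤ normalizer (X₁ : Set G) →
    S ≤ normalizer (X₂ : Set G) → ⁅X₁, X₂⁆ ≤ centralizer (V : Set G) → A ≤ B → B ≤ X₁ → (D = V ∨ D = ⁅V, B⁆) →
    IsEA r A → BestOff A D → ¬ A ≤ centralizer (D : Set G) → mi X₂ V < mi X₁ V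

/-- offenders in direction `a` -/
theorem mi_lt_of_off [Finite G] [Fact r.Prime] (offA : OffAStmt G r) (h : RCore G r Q) {ra rb : Ω → Ω → Prop}
    {da db : ℕ} (A : Dir G ra da) (B : Dir G rb db) (hc : da.Coprime db) (hra : ¬ r ∣ da) (hrb : ¬ r ∣ db)
    (hV : MinFun G r Q V) {x y : Ω} (hxy : ra x y) {D E : Subgroup G} (hD : D = V x ∨ D = ⁅V x, Q y⁆)
    (hE : E ≤ Q y) (hEE : IsEA r E) (hbo : BestOff E D) (hna : ¬ E ≤ centralizer (D : Set G)) :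
    mi (WQ rb Q x) (V x) < mi (WQ ra Q x) (V x) := by
  have h1 := h.WQ_fun A hra
  have h2 := h.WQ_fun B hrb
  refine offA (S := stabilizer G x) (hV.fn.le x) (hV.fn.norm x) (hV.isEA x) (hV.ne x) (hV.min x) (h1.le x) (h2.le x)
    (h1.norm x) (h2.norm x) ?_ hE (le_WQ hxy) hD hEE hbo hna
  refine (h.comm_WQ A B hc hra hrb x).trans ?_
  intro q hq
  rw [mem_centralizer_iff]
  intro v hv
  exact ((mem_centralizer_iff.1 (hV.cent x hv)) q hq).symm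

/-- **helper24's theorem** -/
theorem false_of_HJ_of [Finite G] [Fact r.Prime] (offA : OffAStmt G r) (P : PP G Ω) (h : RCore G r Q)
    {ra rb : Ω → Ω → Prop} {da db : ℕ} (A : Dir G ra da) (B : Dir G rb db) (hc : da.Coprime db)
    (hra : ¬ r ∣ da) (hrb : ¬ r ∣ db) (hcen : ∀ x, centralizer (Q x : Set G) ⊓ stabilizer G x ≤ Q x)
    (x : Ω) (hne : Q x ≠ ⊥)
    (HJ : ∀ (x : Ω) (R : Subgroup G), SylIn r (stabilizer G x) R → JE r R ≤ centralizer (YE r (Q x) : Set G)) :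
    False := by
  obtain ⟨V, hV⟩ := MinFun.exist P h x hne
  by_cases hA : ∀ x y : Ω, ra x y → ∀ D E : Subgroup G, (D = V x ∨ D = ⁅V x, Q y⁆) → D ≤ Q y → E ≤ Q y →
      IsEA r E → BestOff E D → E ≤ centralizer (D : Set G)
  · exact false_of_weak h A hra hcen hV HJ (fun hK hp => exists_sylIn_ge hp hK) bestOff_of_maxEA
      (fun hxy hVY hJ => h.false_of_le_YE P A hra hV.fn hxy (hV.ne _) hVY hJ) hA x
  by_cases hB : ∀ x y : Ω, rb x y → ∀ D E : Subgroup G, (D = V x ∨ D = ⁅V x, Q y⁆) → D ≤ Q y → E ≤ Q y →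
      IsEA r E → BestOff E D → E ≤ centralizer (D : Set G)
  · exact false_of_weak h B hrb hcen hV HJ (fun hK hp => exists_sylIn_ge hp hK) bestOff_of_maxEA
      (fun hxy hVY hJ => h.false_of_le_YE P B hrb hV.fn hxy (hV.ne _) hVY hJ) hB x
  push Not at hA hB
  obtain ⟨x1, y1, h1, D1, E1, hD1, -, hE1, he1, hb1, hn1⟩ := hA
  obtain ⟨x2, y2, h2, D2, E2, hD2, -, hE2, he2, hb2, hn2⟩ := hB
  have l1 := mi_lt_of_off offA h A B hc hra hrb hV h1 hD1 hE1 he1 hb1 hn1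
  have l2 := mi_lt_of_off offA h B A hc.symm hrb hra hV h2 hD2 hE2 he2 hb2 hn2
  rw [mi_fun P (h.WQ_fun A hra) hV.fn hV.ne x2 x1, mi_fun P (h.WQ_fun B hrb) hV.fn hV.ne x2 x1] at l2
  exact absurd l1 (not_lt.2 l2.le)

end Cfsg.Agent.R2.T3544
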