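import Cfsg.Agent.R2.T3544.OffA
import Cfsg.Agent.R2.T3544.OffFin

/-!
# S3544, LOC: helper24's theorem (closing of `OffAStmt`)
-/

set_option autoImplicit false

namespace Cfsg.Agent.R2.T3544

open Subgroup MulAction
open scoped commutatorElement

variable {G : Type*} [Group G]

/-- an invariant subgroup of least order is minimal -/
theorem MinInv.of_mi [Finite G] {W V K : Subgroup G} (hK : K ≤ V) (hne : K ≠ ⊥) (hW : W ≤ normalizer (K : Set G))
    (hc : Nat.card K = mi W V) : MinInv W K := by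
  refine ⟨hne, hW, fun K' hK' hn => ?_⟩
  by_cases h : K' = ⊥
  · exact Or.inl h
  · right
    have h1 := mi_le (hK'.trans hK) h hn
    rw [← hc] at h1
    exact eq_of_le_of_card_ge hK' h1

theorem offA_stmt (G : Type*) [Group G] [Finite G] (r : ℕ) [Fact r.Prime] : OffAStmt G r := by
  intro S V X₁ X₂ B A D _ hSV hEA hne hmin hX1 hX2 hS1 hS2 hc hAB hBX hD hAE hbo hna
  have hV : MinInv S V := ⟨hne, hSV, hmin⟩
  obtain ⟨K₁, hK1, hK1n, hK1W, hK1c⟩ := exists_mi hne (hX1.trans hSV)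
  obtain ⟨K₂, hK2, hK2n, hK2W, hK2c⟩ := exists_mi hne (hX2.trans hSV)
  rw [← hK1c, ← hK2c]
  refine size_lemma hV hEA hS1 hS2 hX1 hX2 hc hAB hBX hAE.isPGroup hD hbo (fun h => hna ?_)
    (MinInv.of_mi hK1 hK1n hK1W hK1c) hK1 (MinInv.of_mi hK2 hK2n hK2W hK2c) hK2
  intro a ha
  rw [mem_centralizer_iff]
  intro d hd
  exact (mem_centralizer_iff.1 (h hd) a ha).symm

/-- **helper24's theorem** -/
theorem false_of_HJ [Finite G] {Ω : Type*} [MulAction G Ω] {r : ℕ} [Fact r.Prime] {Q : Ω → Subgroup G} (P : PP G Ω)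
    (h : RCore G r Q) {ra rb : Ω → Ω → Prop} {da db : ℕ} (A : Dir G ra da) (B : Dir G rb db) (hc : da.Coprime db)
    (hra : ¬ r ∣ da) (hrb : ¬ r ∣ db) (hcen : ∀ x, centralizer (Q x : Set G) ⊓ stabilizer G x ≤ Q x)
    (x : Ω) (hne : Q x ≠ ⊥)
    (HJ : ∀ (x : Ω) (R : Subgroup G), SylIn r (stabilizer G x) R → JE r R ≤ centralizer (YE r (Q x) : Set G)) :
    False :=
  false_of_HJ_of (offA_stmt G r) P h A B hc hra hrb hcen x hne HJ

end Cfsg.Agent.R2.T3544
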